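import Mathlib
import Cfsg.Agent.H320.Kill.Base
import Cfsg.Agent.OddHalf.D5.DblBase
import Cfsg.Agent.SevenCases.Rows

/-!
`A₁₂`.
-/

set_option autoImplicit false

namespace Cfsg.Agent.H320.Kill

open Subgroup Cfsg Cfsg.Agent.SevenCases Cfsg.Agent.OddHalf.D5.Dbl

universe u

/-- the 3-cycle `(9 10 11)` -/
def x12 : Equiv.Perm (Fin 12) := Equiv.swap (9 : Fin 12) 10 * Equiv.swap 10 11

theorem x12_mem : x12 ∈ alternatingGroup (Fin 12) := by
  rw [Equiv.Perm.mem_alternatingGroup]
  decide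

theorem x12_pow : x12 ^ 3 = 1 := by
  apply Equiv.ext
  decide +kernel

theorem x12_ne : x12 ≠ 1 := by
  intro h
  have h2 := congrArg (fun g : Equiv.Perm (Fin 12) => g 9) h
  revert h2
  decide

theorem x12_fix : ∀ j : Fin 9, x12 (Fin.castLE (by norm_num) j) = Fin.castLE (by norm_num) j := by
  decide +kernel

theorem x12_mov : ∀ j : Fin 12, 9 ≤ j.val → 9 ≤ (x12 j).val := by
  decide +kernel

theorem a12 {X : Type u} [Group X] (h : Alt (fun n => n = 12) X) : ¬ Good X := by
  obtain ⟨n, rfl, ⟨e⟩⟩ := h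
  intro hg
  have hg' := hg.congr e
  let x : alternatingGroup (Fin 12) := ⟨x12, x12_mem⟩
  have hx : orderOf x = 3 := by
    refine orderOf_eq_prime ?_ ?_
    · exact Subtype.ext x12_pow
    · intro h
      exact x12_ne (congrArg Subtype.val h)
  let v : Fin 9 ↪ Fin 12 := ⟨Fin.castLE (by norm_num), Fin.castLE_injective _⟩
  have hcomm : ∀ l : alternatingGroup (Fin 9), emb v l * x = x * emb v l := by
    intro l
    apply Subtype.ext
    apply Equiv.ext
    intro i
    show (emb v l : Equiv.Perm (Fin 12)) ((x : Equiv.Perm (Fin 12)) i) =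
      (x : Equiv.Perm (Fin 12)) ((emb v l : Equiv.Perm (Fin 12)) i)
    by_cases hi : i.val < 9
    · have h1 : i = v ⟨i.val, hi⟩ := rfl
      have h3 : ∀ j : Fin 9, (x : Equiv.Perm (Fin 12)) (v j) = v j := x12_fix
      rw [h1, h3, emb_apply, h3]
    · have h2 : ∀ j : Fin 12, 9 ≤ j.val → j ∉ Set.range v := by
        rintro j hj ⟨k, rfl⟩
        exact absurd k.isLt (not_lt.mpr hj)
      have h3 : ∀ j : Fin 12, 9 ≤ j.val → 9 ≤ ((x : Equiv.Perm (Fin 12)) j).val := x12_mov
      rw [emb_notMem _ _ (h2 _ (h3 i (not_lt.mp hi))), emb_notMem _ _ (h2 _ (not_lt.mp hi))]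
  have hs : IsSimpleGroup (alternatingGroup (Fin 9)) :=
    alternatingGroup.isSimpleGroup (by rw [Nat.card_eq_fintype_card, Fintype.card_fin]; norm_num)
  have h9 : Nat.card (alternatingGroup (Fin 9)) = 181440 := by
    rw [nat_card_alternatingGroup, Nat.card_eq_fintype_card, Fintype.card_fin]
    norm_num [Nat.factorial]
  have h12 : Nat.card (alternatingGroup (Fin 12)) = 239500800 := by
    rw [nat_card_alternatingGroup, Nat.card_eq_fintype_card, Fintype.card_fin]
    norm_num [Nat.factorial]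
  obtain ⟨i, h1, -, h2⟩ := hg'.hom_data hx (emb v) (emb_injective v) hcomm hs (not_comm_of_card hs (by rw [h9]; norm_num)) (by rw [h9]; norm_num)
  obtain ⟨k, hk1, hk2, -⟩ := h2 5 (by norm_num) (by norm_num) (by rw [h9]; norm_num)
  rw [h9, h12] at h1
  have h3 : 3 ^ 2 * 181440 ∣ 239500800 := (Nat.mul_dvd_mul_right (pow_dvd_pow 3 (by omega)) _).trans h1
  norm_num at h3

end Cfsg.Agent.H320.Kill
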