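import Cfsg.Agent.SigTab.Table
import Cfsg.Agent.H320.Kill.Base

/-!
# `E_6(q)`, `E_7(q)`, `E_8(q)`, `q` even, `F_4(q)`, `²E_6(q)`, `q > 2` even (helper320)
-/

set_option autoImplicit false

namespace Cfsg.Agent.H320.Kill

open Subgroup Cfsg Cfsg.Lie Cfsg.Agent.GpExc Cfsg.Agent.GpExc.Chev
open Cfsg.Agent.GpExc.Row (field_even)

universe u

theorem three_dvd_of_rank {L : Type*} [Group L] [Finite L] {k : ℕ} (hk : 1 ≤ k) (h : PRankAtLeast 3 k L) :
    3 ∣ Nat.card L := by
  obtain ⟨A, -, hA3, hAc⟩ := h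
  have h3f : Fact (Nat.Prime 3) := ⟨Nat.prime_three⟩
  have hp : IsPGroup 3 A := fun a => ⟨1, Subtype.ext (by simpa using hA3 a a.2)⟩
  obtain ⟨j, hj⟩ := IsPGroup.iff_card.mp hp
  refine Dvd.dvd.trans ?_ (Subgroup.card_subgroup_dvd_card A)
  rw [hj] at hAc ⊢
  apply dvd_pow_self
  rintro rfl
  have : 3 ^ 1 ≤ 3 ^ k := Nat.pow_le_pow_right (by norm_num) hk
  norm_num at hAc this
  omega

theorem not_good_of_out {H : Type u} [Group H] {q N P : ℕ} (h : Out H 3 q N P) : ¬ Good H := by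
  intro hG
  have := hG.fin
  obtain ⟨x, hx, -, -, -, -, -, L, h5, h6, h7, h8, -⟩ := h
  refine not_good_of_comp hx (OddTab.isComponentOf_of_normalized (K := L)
    (fun u hu => mem_centralizer_singleton_iff.mpr (h6 u hu)) h5
    (fun g hg u hu => h7 g (mem_centralizer_singleton_iff.mp hg) u hu)) (three_dvd_of_rank (by norm_num) h8) hG

theorem three_dvd_q {k : ℕ} : 3 ∣ (2 ^ k) ^ 2 - 1 := by
  rw [← pow_mul, mul_comm, pow_mul]
  have h : (2 ^ 2) ^ k % 3 = 1 := by
    rw [Nat.pow_mod]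
    norm_num
  omega

variable {G : Type u} [Group G]

theorem e6 {F : Type} [Field F] [Fintype F] (he : Even (Fintype.card F)) (e : G ≃* chevE6.group F) : ¬ Good G := by
  obtain ⟨h2, k, hk, hqk⟩ := field_even he
  exact fun hG => not_good_of_out (out_E6 h2 Nat.prime_three (by norm_num) rfl (by rw [hqk]; exact three_dvd_q))
    (hG.congr e)

theorem e7 {F : Type} [Field F] [Fintype F] (he : Even (Fintype.card F)) (e : G ≃* chevE7.group F) : ¬ Good G := by
  obtain ⟨h2, k, hk, hqk⟩ := field_even he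
  exact fun hG => not_good_of_out (out_E7 h2 Nat.prime_three (by norm_num) rfl (by rw [hqk]; exact three_dvd_q))
    (hG.congr e)

theorem e8 {F : Type} [Field F] [Fintype F] (he : Even (Fintype.card F)) (e : G ≃* chevE8.group F) : ¬ Good G := by
  obtain ⟨h2, k, hk, hqk⟩ := field_even he
  exact fun hG => not_good_of_out (out_E8 h2 Nat.prime_three (by norm_num) rfl (by rw [hqk]; exact three_dvd_q))
    (hG.congr e)

theorem f4_gt {F : Type} [Field F] [Fintype F] (he : Even (Fintype.card F)) (hq : 2 < Fintype.card F)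
    (e : G ≃* chevF4.group F) : ¬ Good G := by
  obtain ⟨h2, k, hk, hqk⟩ := field_even he
  exact fun hG => not_good_of_out (out_F4 h2 Nat.prime_three (by norm_num) rfl (by rw [hqk]; exact three_dvd_q) hq)
    (hG.congr e)

theorem twE6_gt {K : Type} [Field K] [Fintype K] {q : ℕ} (he : Even q) (hK : Fintype.card K = q ^ 2) (hq2 : 2 < q)
    (e : G ≃* twistedE6 K q) : ¬ Good G := by
  obtain ⟨h2, k, hk, hqk⟩ := field_even (F := K) (by rw [hK]; exact Even.pow_of_ne_zero he two_ne_zero)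
  obtain ⟨j, hj, hqj⟩ : ∃ j, j ≤ k ∧ q = 2 ^ j :=
    (Nat.dvd_prime_pow Nat.prime_two).1 (by rw [← hqk, hK]; exact dvd_pow_self q two_ne_zero)
  have hqp : IsPrimePow q := by
    rw [hqj]
    refine Nat.prime_two.isPrimePow.pow ?_
    rintro rfl
    norm_num at hqj
    omega
  have : CharP K 2 := CharTwo.of_one_ne_zero_of_two_eq_zero one_ne_zero h2
  obtain ⟨φ, hφ, hqq⟩ := Cfsg.Agent.ChevalleyStructure.TwE6Basic.exists_frob hqp hK
  let cs : CoxeterSystem CoxeterMatrix.F₄ CoxeterMatrix.F₄.Group := CoxeterMatrix.F₄.toCoxeterSystem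
  have : Finite CoxeterMatrix.F₄.Group :=
    Cfsg.Agent.Nodes.RGDChev.finite_W Cfsg.Agent.GpExc.Chev.isTy_F4 cs
  have hout : Out ↥(twistedE6 K q) 3 q 15 21 :=
    TwOut.out hφ hqq cs hq2 hK h2 Nat.prime_three (by norm_num) (by rw [hqj]; exact three_dvd_q)
      (TwCard.exists_levi hφ hqq (by omega) hK cs) (TwCard.exists_pos hφ hqq (by omega) hK cs)
  exact fun hG => not_good_of_out hout (hG.congr e)

end Cfsg.Agent.H320.Kill
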