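import Cfsg.Agent.LThreeFfour.Main
import Cfsg.Agent.ChevStructure.FieldMap
import Cfsg.Agent.S1062
import Cfsg.Agent.S0245
import Cfsg.Agent.H320.Kill.Base

/-!
# `F_4(2)` (helper320)
-/

set_option autoImplicit false

namespace Cfsg.Agent.H320.Kill

open Cfsg Cfsg.Lie
open Cfsg.Agent.FourTwo.Base (LL x)
open Cfsg.Agent.LThreeFfour.Levi Cfsg.Agent.LThreeFfour.Long Cfsg.Agent.LThreeFfour.Types

universe u

theorem f4_two {F : Type} [Field F] [Fintype F] (hF : Fintype.card F = 2) {G : Type u} [Group G]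
    (e : G ≃* chevF4.group F) : ¬ Good G := by
  intro hG0
  have hcard2 : Nat.card F = 2 := by rw [Nat.card_eq_fintype_card, hF]
  obtain ⟨ef⟩ : Nonempty (F ≃+* ZMod 2) := ⟨(ZMod.ringEquivOfPrime F Nat.prime_two hF).symm⟩
  have hG : Good LL := hG0.congr (e.trans (ChevStructure.FieldMap.groupEquivOfRingEquiv chevF4 ef))
  have hfin := hG.fin
  have hcE : Nat.card LL = 3311126603366400 := by
    have h := Cfsg.Agent.S1062.result (F := ZMod 2) (q := 2) (ZMod.card 2)
    norm_num at h
    exact h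
  have hcM : Nat.card ↥M0 = 1451520 := by
    rw [Nat.card_congr eqv.toEquiv, Cfsg.Agent.S0245.result (F := ZMod 2) (q := 2) (ZMod.card 2) 3]
    decide
  have hx : orderOf Y0 = 3 := by
    have h1 : orderOf (Y1 : LL) = 3 := by
      rw [← y1_order]
      exact orderOf_injective _ (Subgroup.subtype_injective _) y1
    rw [← h1, ← Y1_conj]
    exact (MulEquiv.orderOf_eq (MulAut.conj _) Y0).symm
  have hs := simple_M0
  obtain ⟨i, h1, -, h3⟩ := hG.hom_data hx M0.subtype M0.subtype_injective
    (fun l => Subgroup.mem_centralizer_singleton_iff.mp (M0_le_cent l.2)) hs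
    (not_comm_of_card hs (by rw [hcM]; norm_num)) (by rw [hcM]; norm_num)
  obtain ⟨k, hk1, hki, hk5⟩ := h3 5 (by norm_num) (by norm_num) (by rw [hcM]; norm_num)
  rw [hcM, hcE] at h1
  have hi : i ≤ 2 := by
    by_contra hcon
    push Not at hcon
    have h5 : 3 ^ 3 * 1451520 ∣ 3311126603366400 := (Nat.mul_dvd_mul_right (pow_dvd_pow 3 hcon) _).trans h1
    norm_num at h5
  have : k = 1 := by omega
  subst this
  norm_num at hk5

end Cfsg.Agent.H320.Kill
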