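import Cfsg.Agent.H320.EarlyChar
import Cfsg.Agent.H320.Kill.Base

/-!
# `Good G` from the hypotheses of S3248 (helper320)
-/

set_option autoImplicit false

namespace Cfsg.Agent.H320.Kill

open Subgroup Cfsg

universe u

theorem atLeast_three {G : Type*} [Group G] [Finite G] {p : ℕ} (hp : p.Prime) (h : ¬ PRankLE p 2 G) :
    PRankAtLeast p 3 G := by
  have hF : Fact p.Prime := ⟨hp⟩
  unfold PRankLE at h
  push Not at h
  obtain ⟨A, hA, hAp, hc⟩ := h
  refine ⟨A, hA, hAp, ?_⟩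
  have h1 : IsPGroup p A := fun a => ⟨1, Subtype.ext (by simpa using hAp a a.2)⟩
  obtain ⟨n, hn⟩ := IsPGroup.iff_card.mp h1
  rw [hn] at hc ⊢
  have h2 := (Nat.pow_lt_pow_iff_right hp.one_lt).mp hc
  exact Nat.pow_le_pow_right hp.pos h2

theorem atLeast_map {G : Type*} [Group G] {A : Subgroup G} {p k : ℕ} (h : PRankAtLeast p k ↥A) : PRankAtLeast p k G := by
  obtain ⟨B, hB, hBp, hc⟩ := h
  refine ⟨B.map A.subtype, inferInstance, ?_, ?_⟩
  · rintro _ ⟨b, hb, rfl⟩
    rw [← map_pow, hBp b hb, map_one]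
  · rwa [Nat.card_congr (B.equivMapOfInjective A.subtype A.subtype_injective).symm.toEquiv]

theorem good_of {G : Type u} [Group G] [Finite G] [IsSimpleGroup G]
    (hG : ¬ IsMulCommutative G) (hFT : ∀ X : Subgroup G, Odd (Nat.card X) → Group.IsSolvable X)
    (S : Sylow 2 G) (A : Subgroup G) (hA : Cfsg.IsSCN (S : Subgroup G) A) (hA3 : ¬ Cfsg.PRankLE 2 2 ↥A)
    (hinv : ∀ X : Subgroup G, Odd (Nat.card ↥X) → (S : Subgroup G) ≤ Subgroup.normalizer (X : Set G) → X = ⊥)
    (hcon : ∀ T : Subgroup G, IsPGroup 2 ↥T → T ≠ ⊥ → Cfsg.IsPConstrained 2 ↥(Subgroup.normalizer (T : Set G)))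
    (B : Subgroup G) (hB3 : ¬ Cfsg.PRankLE 3 2 ↥B)
    (h3con : ∀ R : Subgroup G, IsPGroup 3 ↥R → R ≠ ⊥ → Subgroup.normalizer (R : Set G) ≠ ⊤ → Cfsg.IsPConstrained 3 ↥(Subgroup.normalizer (R : Set G))) :
    Good G := by
  have h3F : Fact (Nat.Prime 3) := ⟨Nat.prime_three⟩
  refine ⟨inferInstance, EarlyChar.isCharacteristicTwoType hFT S A hA hA3 hinv hcon,
    atLeast_map (atLeast_three Nat.prime_two hA3), atLeast_map (atLeast_three Nat.prime_three hB3), ?_⟩
  intro x hx
  have hT : IsPGroup 3 ↥(zpowers x) := IsPGroup.of_card (n := 1) (by rw [Nat.card_zpowers, hx, pow_one])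
  have hT1 : zpowers x ≠ ⊥ := by
    intro h
    rw [zpowers_eq_bot] at h
    rw [h, orderOf_one] at hx
    norm_num at hx
  have hN : normalizer (zpowers x : Set G) ≠ ⊤ := by
    intro h
    have h1 : (zpowers x).Normal := normalizer_eq_top_iff.mp h
    rcases h1.eq_bot_or_eq_top with h2 | h2
    · exact hT1 h2
    · apply hG
      have h3 : IsMulCommutative (⊤ : Subgroup G) := by
        rw [← h2]
        infer_instance
      refine ⟨⟨fun a b => ?_⟩⟩
      exact congrArg Subtype.val (h3.is_comm.comm ⟨a, mem_top a⟩ ⟨b, mem_top b⟩)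
  have h1 := PCon.isPConstrained_centralizer_of_le hT (h3con _ hT hT1 hN) le_normalizer (centralizer_le_normalizer _)
  have h2 : centralizer (zpowers x : Set G) = centralizer {x} := by
    rw [zpowers_eq_closure, centralizer_closure]
  exact PCon.isPConstrained_of_eq h2 h1

end Cfsg.Agent.H320.Kill
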