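import Mathlib
import Cfsg.Agent.H320.Kill.Base
import Cfsg.Agent.CpAutJThree.Row

/-!
`J₃`: an element of order 3 with centralizer `3 × A₆`.
-/

set_option autoImplicit false

namespace Cfsg.Agent.H320.Kill

open Subgroup Cfsg Cfsg.Agent.CpAutJThree

universe u

theorem j3 {K : Type u} [Group K] (h : Cfsg.Spor.IsoJ3 K) : ¬ Good K := by
  intro hg
  obtain ⟨hcard, hM, hone, -⟩ := base h
  have hfin : Finite K := Nat.finite_of_card_ne_zero (by rw [hcard]; norm_num)
  have hp2 : Fact (Nat.Prime 2) := ⟨Nat.prime_two⟩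
  have hp3 : Fact (Nat.Prime 3) := ⟨Nat.prime_three⟩
  obtain ⟨x, hx, ⟨s, hs, hsx⟩, hC⟩ := exc h
  have memC : ∀ a : K, a ∈ centralizer ({x} : Set K) ↔ a * x = x * a := fun a => mem_centralizer_singleton_iff
  let c : centralizer ({x} : Set K) := ⟨x, (memC x).2 rfl⟩
  have hc3 : orderOf c = 3 := by rw [← hx]; exact orderOf_mk _ _
  have hcc : ∀ a : centralizer ({x} : Set K), a * c = c * a := fun a => Subtype.ext ((memC a).1 a.2)
  have hZn : (zpowers c).Normal := by
    constructor
    rintro n ⟨k, rfl⟩ g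
    refine ⟨k, ?_⟩
    have h1 : Commute g c := hcc g
    have := h1.zpow_right k
    show c ^ k = g * c ^ k * g⁻¹
    rw [this.eq]; group
  have hHD8 := J3Type.Extra.hd8_quotient c hc3 hcc (hD_of_model hM hx)
  have hq : Nat.card (↥(centralizer ({x} : Set K)) ⧸ zpowers c) = 360 := by
    have := card_eq_card_quotient_mul_card_subgroup (zpowers c)
    rw [hC, Nat.card_zpowers, hc3] at this
    omega
  obtain ⟨s', hs'⟩ := exists_prime_orderOf_dvd_card' (G := ↥(centralizer ({x} : Set K)) ⧸ zpowers c) 2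
    (by rw [hq]; norm_num)
  have hsim := J3Type.Extra.isSimple hHD8 hs'
  refine not_pConstrained_of_central (Z := zpowers c) ?_ ?_ hsim ?_ (by rw [hq]; norm_num) (hg.con x hx)
  · rw [zpowers_le, mem_center_iff]
    exact hcc
  · rw [IsPGroup.iff_card]
    exact ⟨1, by rw [pow_one, Nat.card_zpowers, hc3]⟩
  · intro hcomm
    have h1 : ∀ a b : ↥(centralizer ({x} : Set K)) ⧸ zpowers c, a * b = b * a := hcomm.is_comm.comm
    let _ : CommGroup (↥(centralizer ({x} : Set K)) ⧸ zpowers c) :=
      { (inferInstance : Group (↥(centralizer ({x} : Set K)) ⧸ zpowers c)) with mul_comm := h1 }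
    have h2 := IsSimpleGroup.prime_card (α := ↥(centralizer ({x} : Set K)) ⧸ zpowers c)
    rw [hq] at h2
    norm_num at h2

end Cfsg.Agent.H320.Kill
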