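import Mathlib
import Cfsg.Agent.H320.Kill.Base
import Cfsg.Agent.EvenType.CTwoCard
import Cfsg.Agent.J4.Pres
import Cfsg.Agent.KFacts.MulSpor.NoDbl
import Cfsg.Agent.SevenCases.Rows
import Cfsg.Agent.S0365

/-!
The Mathieu groups, `J₄` and `A₈`.
-/

set_option autoImplicit false

namespace Cfsg.Agent.H320.Kill

open Subgroup Cfsg Cfsg.Agent.SevenCases Cfsg.Agent.J4.M24Hom Cfsg.Agent.SporadicA.GolayWalk

universe u v

theorem m22 {X : Type*} [Group X] (h : Cfsg.Spor.IsoM22 X) : ¬ Good X :=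
  not_good_of_card (by rw [EvenType.CTwoCard.m22 h]; norm_num)

theorem m23 {X : Type*} [Group X] (h : Cfsg.Spor.IsoM23 X) : ¬ Good X :=
  not_good_of_card (by rw [EvenType.CTwoCard.m23 h]; norm_num)

theorem a8 {X : Type u} [Group X] (h : Alt (fun n => n = 8) X) : ¬ Good X := by
  obtain ⟨n, rfl, ⟨e⟩⟩ := h
  refine not_good_of_card ?_
  rw [Nat.card_congr e.toEquiv, nat_card_alternatingGroup, Nat.card_eq_fintype_card, Fintype.card_fin]
  norm_num [Nat.factorial]

/-- table of `a` -/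
def ta : List ℕ := [12, 17, 10, 23, 9, 16, 3, 22, 13, 20, 15, 1, 19, 14, 8, 2, 21, 11, 7, 0, 4, 5, 18, 6]
/-- table of `b` -/
def tb : List ℕ := [12, 16, 23, 18, 11, 21, 2, 3, 14, 4, 15, 9, 19, 8, 13, 22, 17, 1, 7, 0, 5, 20, 10, 6]
/-- table of `z` -/
def tz : List ℕ := [0, 21, 3, 22, 1, 9, 7, 15, 8, 17, 23, 16, 12, 13, 14, 6, 20, 5, 10, 19, 11, 4, 2, 18]

/-- `a` -/
def pa : Equiv.Perm GolayPt where
  toFun := fn ta
  invFun := fun p => fn ta (fn ta p)
  left_inv := by decide +kernel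
  right_inv := by decide +kernel

/-- `b` -/
def pb : Equiv.Perm GolayPt where
  toFun := fn tb
  invFun := fun p => fn tb (fn tb p)
  left_inv := by decide +kernel
  right_inv := by decide +kernel

/-- `z` -/
def pz : Equiv.Perm GolayPt where
  toFun := fn tz
  invFun := fun p => fn tz (fn tz p)
  left_inv := by decide +kernel
  right_inv := by decide +kernel

theorem pa_mem : pa ∈ M24 := mem_M24_of_table pa ta rfl (by decide +kernel) (by decide +kernel)
theorem pb_mem : pb ∈ M24 := mem_M24_of_table pb tb rfl (by decide +kernel) (by decide +kernel)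
theorem pz_mem : pz ∈ M24 := mem_M24_of_table pz tz rfl (by decide +kernel) (by decide +kernel)

theorem heis : ∃ a b z : M24, a ^ 3 = 1 ∧ b ^ 3 = 1 ∧ z ^ 3 = 1 ∧ z ≠ 1 ∧ a * b = z * b * a ∧ a * z = z * a ∧
    b * z = z * b := by
  refine ⟨⟨pa, pa_mem⟩, ⟨pb, pb_mem⟩, ⟨pz, pz_mem⟩, ?_, ?_, ?_, ?_, ?_, ?_, ?_⟩
  · apply Subtype.ext; apply perm_ext; decide +kernel
  · apply Subtype.ext; apply perm_ext; decide +kernel
  · apply Subtype.ext; apply perm_ext; decide +kernel
  · intro h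
    have h1 : pz = 1 := congrArg Subtype.val h
    have h2 := congrArg (fun g : Equiv.Perm GolayPt => g (some 1)) h1
    revert h2
    decide +kernel
  · apply Subtype.ext; apply perm_ext; decide +kernel
  · apply Subtype.ext; apply perm_ext; decide +kernel
  · apply Subtype.ext; apply perm_ext; decide +kernel

theorem not_good_of_m24 {G : Type u} [Group G] (hc : ¬ 81 ∣ Nat.card G) (f : M24 →* G) (hf : Function.Injective f) :
    ¬ Good G := by
  obtain ⟨a, b, z, ha, hb, hz, hz1, hab, haz, hbz⟩ := heis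
  refine not_good_of_heis hc (a := f a) (b := f b) (z := f z) ?_ ?_ ?_ ?_ ?_ ?_ ?_
  · rw [← map_pow, ha, map_one]
  · rw [← map_pow, hb, map_one]
  · rw [← map_pow, hz, map_one]
  · intro h
    exact hz1 (hf (h.trans (map_one f).symm))
  · rw [← map_mul, hab, map_mul, map_mul]
  · rw [← map_mul, haz, map_mul]
  · rw [← map_mul, hbz, map_mul]

theorem m24 {X : Type*} [Group X] (h : Cfsg.Spor.IsoM24 X) : ¬ Good X := by
  have hc := EvenType.CTwoCard.m24 h
  obtain ⟨e⟩ := h
  exact not_good_of_m24 (by rw [hc]; norm_num) e.symm.toMonoidHom e.symm.injective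

theorem phi_injective : Function.Injective Cfsg.Agent.J4.Pres.phi := by
  have hs : IsSimpleGroup M24 := Cfsg.Agent.S0365.result
  have h1 : (Cfsg.Agent.J4.Pres.phi.ker).Normal := inferInstance
  rcases h1.eq_bot_or_eq_top with h2 | h2
  · exact (MonoidHom.ker_eq_bot_iff _).mp h2
  · exfalso
    have hx : Cfsg.Agent.J4.Rep112.x = 1 := by
      rw [← Cfsg.Agent.J4.Pres.phi_X, ← MonoidHom.mem_ker, h2]
      exact mem_top _
    have hy : Cfsg.Agent.J4.Rep112.y = 1 := by
      rw [← Cfsg.Agent.J4.Pres.phi_Y, ← MonoidHom.mem_ker, h2]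
      exact mem_top _
    have h3 : (⊤ : Subgroup Cfsg.Spor.J4) ≤ zpowers Cfsg.Agent.J4.Rep112.t := by
      rw [← Cfsg.Agent.J4.Rep112.closure_eq_top, closure_le]
      rintro g (rfl | rfl | rfl)
      · rw [hx]; exact one_mem _
      · rw [hy]; exact one_mem _
      · exact mem_zpowers _
    have h4 := Cfsg.Agent.J4.Final.card_J4
    have h5 : Nat.card (zpowers Cfsg.Agent.J4.Rep112.t) = Nat.card Cfsg.Spor.J4 := by
      rw [top_le_iff.mp h3, Subgroup.card_top]
    rw [Nat.card_zpowers, h4] at h5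
    have h6 : orderOf Cfsg.Agent.J4.Rep112.t ∣ 2 := orderOf_dvd_of_pow_eq_one (by
      exact Cfsg.Agent.J4.Pres.all_rels.2.2.2.2.2.2.2.1)
    rw [h5] at h6
    exact absurd (Nat.le_of_dvd (by norm_num) h6) (by norm_num)

theorem j4 {X : Type*} [Group X] (h : Cfsg.Spor.IsoJ4 X) : ¬ Good X := by
  have hc := EvenType.CTwoCard.j4 h
  obtain ⟨e⟩ := h
  exact not_good_of_m24 (by rw [hc]; norm_num) (e.symm.toMonoidHom.comp Cfsg.Agent.J4.Pres.phi)
    (e.symm.injective.comp phi_injective)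

end Cfsg.Agent.H320.Kill
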