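import Cfsg.Agent.SigTab.Table
import Cfsg.Agent.H320.Kill.Base

/-!
# The groups `PΩ^±_{2m}(q)`, `q` even, `m ≥ 4` (helper320)
-/

set_option autoImplicit false

namespace Cfsg.Agent.H320.Kill

open Cfsg
open QuadraticMap hiding proj
open Cfsg.Agent.LieClassical.OrthCore Cfsg.Agent.LieClassical.OrthTrans Cfsg.Agent.GpOm.Ext
open Cfsg.Agent.GpOm.Classify Cfsg.Agent.GpOm.Sel Cfsg.Agent.OddTab Cfsg.Agent.GpOm.Comp Cfsg.Agent.GpOm.Two
open Cfsg.Agent.GpOm.Row (equiv_of_plus equiv_of_minus)
open Cfsg.Agent.LieClassical Cfsg.Agent.CpQuot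

universe u v

section

variable {F : Type u} [Field F] [Finite F] [CharP F 2] {V : Type v} [AddCommGroup V] [Module F V]
  [FiniteDimensional F V] {Q : QuadraticForm F V}

theorem plane_plus (F : Type u) [Field F] {m : ℕ} (hm : 2 ≤ m) : ∃ u w : Fin m ⊕ Fin m → F,
    OrthForms.plusForm m F u = 1 ∧ OrthForms.plusForm m F w = 1 ∧ polar (OrthForms.plusForm m F) u w = 1 := by
  refine ⟨Sum.elim (fun i => if i.val = 0 then 1 else 0) (fun i => if i.val = 0 then 1 else 0),
    Sum.elim (fun i => if i.val ≤ 1 then 1 else 0) (fun i => if i.val = 1 then 1 else 0), ?_, ?_, ?_⟩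
  · rw [OrthForms.coe_plusForm, quadFormPlus]
    rw [Finset.sum_eq_single (⟨0, by omega⟩ : Fin m)]
    · simp
    · intro i _ hi
      have : i.val ≠ 0 := fun h => hi (Fin.ext h)
      simp [this]
    · intro h
      exact absurd (Finset.mem_univ _) h
  · rw [OrthForms.coe_plusForm, quadFormPlus]
    rw [Finset.sum_eq_single (⟨1, by omega⟩ : Fin m)]
    · simp
    · intro i _ hi
      have : i.val ≠ 1 := fun h => hi (Fin.ext h)
      simp [this]
    · intro h
      exact absurd (Finset.mem_univ _) h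
  · rw [OrthForms.polar_plusForm]
    rw [Finset.sum_eq_single (⟨0, by omega⟩ : Fin m)]
    · simp
    · intro i _ hi
      have : i.val ≠ 0 := fun h => hi (Fin.ext h)
      simp [this]
    · intro h
      exact absurd (Finset.mem_univ _) h

theorem plane_minus (F : Type u) [Field F] {m : ℕ} (hm : 1 ≤ m) (a b : F) : ∃ u w : (Fin m ⊕ Fin m) ⊕ Fin 2 → F,
    OrthForms.minusForm m F a b u = 1 ∧ OrthForms.minusForm m F a b w = 1 ∧
      polar (OrthForms.minusForm m F a b) u w = 1 := by
  refine ⟨Sum.elim (Sum.elim (fun i => if i.val = 0 then 1 else 0) (fun i => if i.val = 0 then 1 else 0)) 0,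
    Sum.elim (Sum.elim (fun i => if i.val = 0 then 1 else 0) 0) ![1, 0], ?_, ?_, ?_⟩
  · rw [OrthForms.coe_minusForm, quadFormMinus]
    rw [Finset.sum_eq_single (⟨0, by omega⟩ : Fin m)]
    · simp
    · intro i _ hi
      have : i.val ≠ 0 := fun h => hi (Fin.ext h)
      simp [this]
    · intro h
      exact absurd (Finset.mem_univ _) h
  · rw [OrthForms.coe_minusForm, quadFormMinus]
    rw [Finset.sum_eq_zero]
    · simp
    · intro i _
      simp
  · rw [OrthForms.polar_minusForm]
    rw [Finset.sum_eq_single (⟨0, by omega⟩ : Fin m)]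
    · simp
    · intro i _ hi
      have : i.val ≠ 0 := fun h => hi (Fin.ext h)
      simp [this]
    · intro h
      exact absurd (Finset.mem_univ _) h

/-- a plane with a rotation of order three -/
theorem exists_plane' (hQ : Nondeg Q) (hd : 4 ≤ Module.finrank F V) :
    ∃ v w : V, Q v = 1 ∧ Q w = 1 ∧ polar Q v w = 1 := by
  obtain ⟨m, h | h⟩ := classify Q hQ
  · have hm := h.finrank
    obtain ⟨e, he⟩ := h
    obtain ⟨u, w, h1, h2, h3⟩ := plane_plus F (m := m) (by omega)
    refine ⟨e u, e w, by rw [he, h1], by rw [he, h2], ?_⟩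
    rw [← h3]
    simp only [polar, ← he, map_add]
  · have hm := h.finrank
    obtain ⟨a, b, -, e, he⟩ := h
    obtain ⟨u, w, h1, h2, h3⟩ := plane_minus F (m := m) (by omega) a b
    refine ⟨e u, e w, by rw [he, h1], by rw [he, h2], ?_⟩
    rw [← h3]
    simp only [polar, ← he, map_add]

/-- an element of order three of `E Q` -/
theorem three_dvd_E (hQ : Nondeg Q) (hd : 5 ≤ Module.finrank F V) : 3 ∣ Nat.card ↥(E Q) := by
  have h3f : Fact (Nat.Prime 3) := ⟨Nat.prime_three⟩
  obtain ⟨v, w, hv, hw, hvw⟩ := exists_plane' hQ (by omega)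
  have h := op_plane hv hw hvw
  have hG := OrthFinite.good_of_finite hQ hd
  have hx := mem_E_of_odd hG (rotV_mem_O h) (n := 3) (by decide) (rotV_pow h)
  have h1 : orderOf (⟨rotV h, hx⟩ : ↥(E Q)) = 3 :=
    orderOf_eq_prime (Subtype.ext (rotV_pow h)) (fun h1 => rotV_ne_one h (congrArg Subtype.val h1))
  rw [← h1]
  exact orderOf_dvd_natCard _

theorem not_good_E (hQ : Nondeg Q) (hd : 7 ≤ Module.finrank F V) {G : Type u} [Group G] (e : G ≃* ↥(E Q)) :
    ¬ Kill.Good G := by
  obtain ⟨v, w, hv, hw, hvw⟩ := exists_plane' hQ (by omega)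
  have h3f : Fact (Nat.Prime 3) := ⟨Nat.prime_three⟩
  have h := op_plane hv hw hvw
  have hxO := rotV_mem_O h
  have hx3 := rotV_pow h
  have hx1 := rotV_ne_one h
  have hfin := finrank_Fix_rotV hQ h
  have hop := fixOP hxO (n := 3) (by decide) hx3
  have hW := hop.nondeg hQ
  have hG := OrthFinite.good_of_finite hW (by omega)
  have hGV := OrthFinite.good_of_finite hQ (by omega : 5 ≤ Module.finrank F V)
  have hx : rotV h ∈ E Q := mem_E_of_odd hGV hxO (n := 3) (by decide) hx3
  have hi : Function.Injective (e.symm.toMonoidHom.comp (extE hop)) := e.symm.injective.comp (extE_injective hop)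
  let eK := rangeEquiv hi
  have hcomp := (cover hop hQ e hx (by
    intro v
    exact ⟨fun hv => ⟨⟨v, hv⟩, rfl⟩, by rintro ⟨w, rfl⟩; exact w.2⟩)).isComponentOf
    ((Congr.isQuasisimple_iff eK).1 (isQuasisimple_E hG))
  refine not_good_of_comp (x := e.symm ⟨rotV h, hx⟩) ?_ hcomp ?_
  · rw [MulEquiv.orderOf_eq]
    exact orderOf_eq_prime (Subtype.ext hx3) (fun h1 => hx1 (congrArg Subtype.val h1))
  · rw [← Nat.card_congr eK.toEquiv]
    exact three_dvd_E hW (by omega)

end

section

variable {F : Type} [Field F] [Fintype F] [CharP F 2] {m : ℕ} {G : Type u} [Group G]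

theorem not_good_plus (hm : 4 ≤ m) (e : G ≃* POmega F (quadFormPlus m F)) : ¬ Kill.Good G := by
  intro hG
  obtain ⟨f⟩ := equiv_of_plus (Q := OrthForms.plusForm m F) (by omega : 3 ≤ m) ⟨LinearEquiv.refl _ _, fun u => rfl⟩
  have hQ := OrthForms.nondeg_plusForm m F
  have hfin : Module.finrank F (Fin m ⊕ Fin m → F) = 2 * m := by
    rw [Module.finrank_fintype_fun_eq_card, Fintype.card_sum, Fintype.card_fin]
    ring
  exact not_good_E hQ (by omega) (MulEquiv.refl _) (hG.congr (e.trans f.symm))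

theorem not_good_minus {a b : F} (hab : Aniso a b) (hm : 4 ≤ m)
    (e : G ≃* POmega F (quadFormMinus (m - 1) F a b)) : ¬ Kill.Good G := by
  intro hG
  obtain ⟨f⟩ := equiv_of_minus (Q := OrthForms.minusForm (m - 1) F a b) (by omega : 2 ≤ m - 1) hab
    (e := LinearEquiv.refl _ _) (fun u => rfl)
  have hQ := OrthForms.nondeg_minusForm (m - 1) F a b hab
  have hfin : Module.finrank F ((Fin (m - 1) ⊕ Fin (m - 1)) ⊕ Fin 2 → F) = 2 * m := by
    rw [Module.finrank_fintype_fun_eq_card, Fintype.card_sum, Fintype.card_sum, Fintype.card_fin, Fintype.card_fin]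
    omega
  exact not_good_E hQ (by omega) (MulEquiv.refl _) (hG.congr (e.trans f.symm))

end

end Cfsg.Agent.H320.Kill
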