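import Mathlib
import Cfsg.Agent.H320.Kill.Base
import Cfsg.Agent.AschComp.AllRows
import Cfsg.Agent.SevenCases.Rows

/-!
Groups with a component in the centralizer of an involution, II: `HS`, `Co₃`, `Fi₂₂`, `Fi₂₃`, `Fi₂₄'`, `HN`, `B`, `M`,
`L₄(3)`, `PΩ₇(3)`, `PΩ₈^±(3)`.
-/

set_option autoImplicit false

namespace Cfsg.Agent.H320.Kill

open Subgroup Cfsg Cfsg.Agent.AschComp Cfsg.Agent.SevenCases

universe u v

theorem not_good_of_rankOne {G : Type u} [Group G] (h : RankOne G) : ¬ Good G := by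
  obtain ⟨z, K, hz, hK, -⟩ := h
  exact not_good_of_two hz hK

theorem hs {X : Type*} [Group X] (h : Cfsg.Spor.IsoHS X) : ¬ Good X := by
  obtain ⟨e⟩ := h
  exact fun hg => not_good_of_rankOne AllRows.spor.hs (hg.congr e)

theorem co3 {X : Type*} [Group X] (h : Cfsg.Spor.IsoCo3 X) : ¬ Good X := by
  obtain ⟨e⟩ := h
  exact fun hg => not_good_of_rankOne AllRows.spor.co3 (hg.congr e)

theorem fi22 {X : Type*} [Group X] (h : Cfsg.Spor.IsoFi22 X) : ¬ Good X := by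
  obtain ⟨e⟩ := h
  exact fun hg => not_good_of_rankOne AllRows.spor.fi22 (hg.congr e)

theorem fi23 {X : Type*} [Group X] (h : Cfsg.Spor.IsoFi23 X) : ¬ Good X := by
  obtain ⟨e⟩ := h
  exact fun hg => not_good_of_rankOne AllRows.spor.fi23 (hg.congr e)

theorem fi24 {X : Type*} [Group X] (h : Cfsg.Spor.IsoFi24' X) : ¬ Good X := by
  obtain ⟨e⟩ := h
  exact fun hg => not_good_of_rankOne AllRows.spor.fi24 (hg.congr e)

theorem hn {X : Type*} [Group X] (h : Cfsg.Spor.IsoHN X) : ¬ Good X := by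
  obtain ⟨e⟩ := h
  exact fun hg => not_good_of_rankOne AllRows.spor.hn (hg.congr e)

theorem babyMonster {X : Type*} [Group X] (h : Cfsg.Spor.IsoB X) : ¬ Good X := by
  obtain ⟨e⟩ := h
  exact fun hg => not_good_of_rankOne AllRows.spor.b (hg.congr e)

theorem monster {X : Type*} [Group X] (h : Cfsg.Spor.IsoM X) : ¬ Good X := by
  obtain ⟨e⟩ := h
  exact fun hg => not_good_of_rankOne AllRows.spor.m (hg.congr e)

theorem l43 {X : Type u} [Group X] (h : PslOdd (fun n q => n = 4 ∧ q = 3) X) : ¬ Good X := by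
  obtain ⟨F, _, _, n, -, ⟨rfl, hF⟩, ⟨e⟩⟩ := h
  exact fun hg => not_good_of_rankOne (AllRows.three.psl3 F 4 hF le_rfl) (hg.congr e)

theorem o73 {X : Type u} [Group X] (h : OmegaOdd (fun m q => m = 3 ∧ q = 3) X) : ¬ Good X := by
  obtain ⟨F, _, _, n, -, ⟨rfl, hF⟩, ⟨e⟩⟩ := h
  exact fun hg => not_good_of_rankOne (AllRows.three.odd3 F 3 hF le_rfl) (hg.congr e)

theorem o8p3 {X : Type u} [Group X] (h : OmegaPlusOdd (fun m q => m = 4 ∧ q = 3) X) : ¬ Good X := by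
  obtain ⟨F, _, _, n, -, ⟨rfl, hF⟩, ⟨e⟩⟩ := h
  exact fun hg => not_good_of_rankOne (AllRows.three.plus3 F 4 hF le_rfl) (hg.congr e)

theorem o8m3 {X : Type u} [Group X] (h : OmegaMinusOdd (fun m q => m = 4 ∧ q = 3) X) : ¬ Good X := by
  obtain ⟨F, _, _, n, a, b, -, ⟨rfl, hF⟩, hab, ⟨e⟩⟩ := h
  exact fun hg => not_good_of_rankOne (AllRows.three.minus3 F 4 a b hF le_rfl hab) (hg.congr e)

end Cfsg.Agent.H320.Kill
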