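import Mathlib
import Cfsg.Agent.H320.Kill.Base
import Cfsg.Agent.CTwoTab.He
import Cfsg.Agent.CTwoTab.Suz
import Cfsg.Agent.CTwoTab.JTwo
import Cfsg.Agent.CTwoTab.Ru
import Cfsg.Agent.CTwoTab.Co1

/-!
Sporadic groups with a component in the centralizer of an involution, I: `J₂`, `He`, `Suz`, `Ru`, `Co₁`.
-/

set_option autoImplicit false

namespace Cfsg.Agent.H320.Kill

open Subgroup Cfsg Cfsg.Agent.OddTab

universe u v

/-- a quasisimple normal subgroup of the centralizer of an involution -/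
theorem not_good_of_norm {G : Type u} [Group G] {x : G} (hx : orderOf x = 2) {L : Subgroup G}
    (hL : IsQuasisimple ↥L) (hle : ∀ l ∈ L, l * x = x * l) (hn : ∀ g, g * x = x * g → ∀ l ∈ L, g * l * g⁻¹ ∈ L) :
    ¬ Good G :=
  not_good_of_two hx (isComponentOf_of_normalized
    (fun l hl => mem_centralizer_singleton_iff.mpr (hle l hl)) hL
    fun g hg l hl => hn g (mem_centralizer_singleton_iff.mp hg) l hl)

/-- a quasisimple subgroup of the centralizer of an involution containing all perfect subgroups -/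
theorem not_good_of_perf {G : Type u} [Group G] {x : G} (hx : orderOf x = 2) {L : Subgroup G}
    (hL : IsQuasisimple ↥L) (hle : L ≤ centralizer ({x} : Set G))
    (hp : ∀ P : Subgroup G, P ≤ centralizer ({x} : Set G) → ⁅P, P⁆ = P → P ≤ L) : ¬ Good G := by
  refine not_good_of_two hx (isComponentOf_of_normalized hle hL ?_)
  intro g hg l hl
  have hLL : ⁅L, L⁆ = L := by
    have h1 := Group.isPerfect_def.mp hL.1
    have h2 := congrArg (Subgroup.map L.subtype) h1
    rw [commutator_def, Subgroup.map_commutator, ← MonoidHom.range_eq_map, Subgroup.range_subtype] at h2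
    exact h2
  have h1 : L.map (MulAut.conj g).toMonoidHom ≤ L := by
    refine hp _ ?_ ?_
    · rintro _ ⟨y, hy, rfl⟩
      have := (centralizer ({x} : Set G)).mul_mem ((centralizer ({x} : Set G)).mul_mem hg (hle hy))
        ((centralizer ({x} : Set G)).inv_mem hg)
      exact this
    · rw [← Subgroup.map_commutator, hLL]
  exact h1 ⟨l, hl, rfl⟩

theorem orderOf_two {G : Type*} [Group G] {x : G} (h : x * x = 1) (h1 : x ≠ 1) : orderOf x = 2 :=
  orderOf_eq_prime (by rw [pow_two, h]) h1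

theorem he {X : Type*} [Group X] (h : Cfsg.Spor.IsoHe X) : ¬ Good X := by
  obtain ⟨e⟩ := h
  intro hg
  have hg' : Good Cfsg.Spor.He := hg.congr e
  exact not_good_of_perf (orderOf_two (Cfsg.Agent.KFacts.He.TwoACent.gn_mul_self .a)
    Cfsg.Agent.KFacts.He.TwoACent.a_ne_one)
    Cfsg.Agent.KFacts.He.TwoA.isQuasisimple_L CTwoTab.He.L_le_cent CTwoTab.He.perfect_le_L hg'

theorem suz {X : Type*} [Group X] (h : Cfsg.Spor.IsoSuz X) : ¬ Good X := by
  obtain ⟨e⟩ := h
  intro hg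
  have hg' : Good Cfsg.Spor.Suz := hg.congr e
  exact not_good_of_perf (orderOf_two KFacts.SuzLFour.e0_sq KFacts.SuzLFour.e0_ne) CTwoTab.Suz.quasi_L
    CTwoTab.Suz.L_le_CE CTwoTab.Suz.perfect_le_L hg'

theorem jtwo {X : Type*} [Group X] (h : Cfsg.Spor.IsoJ2 X) : ¬ Good X := by
  intro hg
  have := hg.fin
  obtain ⟨t, u, Q, v, ρ, D⟩ := Cfsg.Agent.KFacts.J2.Facts.exists_dat_of h
  obtain ⟨f, U, V, H0, F⟩ := Cfsg.Agent.J2Type.CentU.main D.F
  obtain ⟨e⟩ := OddHalf.D4.Spor.JTwo.equiv_H0 D F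
  have hs := OddHalf.D4.Spor.JTwo.simple_H0 D F
  refine not_good_of_perf D.F.hu (CTwoTab.isQuasisimple_of_simple (CTwoTab.na_alt le_rfl e)) F.str.le ?_ hg
  · exact fun P hP hperf => CTwoTab.perfect_le_of_sq (fun a ha => F.str.sq_mem a ha) P hP hperf

theorem ru {X : Type*} [Group X] (h : Cfsg.Spor.IsoRu X) : ¬ Good X := by
  intro hg
  have := hg.fin
  obtain ⟨C, hsz, -⟩ := CTwoTab.Ru.exists_core_sz h
  have hs : IsSimpleGroup ↥C.L := CTwoTab.Ru.simple_sz hsz
  exact not_good_of_perf (orderOf_two (C.v_sq 1) (fun h => absurd (C.v_eq_one h) (by decide))) (CTwoTab.isQuasisimple_of_simple (CTwoTab.Ru.na_L C))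
    (CTwoTab.Ru.le_cent C 1) (CTwoTab.Ru.perfect_le_L C (by decide)) hg

theorem co1 {X : Type*} [Group X] (h : Cfsg.Spor.IsoCo1 X) : ¬ Good X := by
  obtain ⟨e⟩ := h
  intro hg
  have hg' : Good Cfsg.Spor.Co1 := hg.congr e
  have S := Cfsg.Agent.KFacts.Co1D4.Main.setup
  refine not_good_of_perf (orderOf_two Cfsg.Agent.KFacts.Co1D4.TwoB.ww Cfsg.Agent.KFacts.Co1D4.TwoB.w_ne)
    CTwoTab.Co1.quasisimple_L ?_ ?_ hg'
  · intro l hl
    exact Subgroup.mem_centralizer_singleton_iff.2 (Cfsg.Agent.KFacts.Co1D4.TwoB.Lw l hl)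
  · intro P hP hPP
    exact S.le_of_perfect hPP fun p hp => Subgroup.mem_centralizer_singleton_iff.1 (hP hp)

end Cfsg.Agent.H320.Kill
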