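import Cfsg.Agent.GpSp.Row
import Cfsg.Agent.S0245
import Cfsg.Agent.S0247
import Cfsg.Agent.H320.Kill.RankTwo

/-!
# The groups `PSp_2m(q)`, `q` even (helper320)
-/

set_option autoImplicit false

namespace Cfsg.Agent.H320.Kill

open Cfsg Subgroup
open Cfsg.Agent.GpSp.Row (toPSp charP_two)
open scoped commutatorElement

universe u

variable {F : Type} [Field F] [Fintype F]

theorem quasisimple_of_simple {K : Type*} [Group K] (hs : IsSimpleGroup K) (hc : ¬ IsMulCommutative K) :
    IsQuasisimple K := by
  have hcen : center K = ⊥ := by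
    rcases (inferInstance : (center K).Normal).eq_bot_or_eq_top with h | h
    · exact h
    · exfalso
      apply hc
      refine ⟨⟨fun a b => ?_⟩⟩
      have h1 : b ∈ center K := by rw [h]; trivial
      exact mem_center_iff.mp h1 a
  refine ⟨?_, ?_⟩
  · rw [Group.isPerfect_def]
    rcases (inferInstance : (commutator K).Normal).eq_bot_or_eq_top with h | h
    · exfalso
      apply hc
      refine ⟨⟨fun a b => ?_⟩⟩
      have h2 : ⁅a, b⁆ ∈ commutator K := Subgroup.commutator_mem_commutator (Subgroup.mem_top a) (Subgroup.mem_top b)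
      rw [h, Subgroup.mem_bot, commutatorElement_eq_one_iff_mul_comm] at h2
      exact h2
    · exact h
  · exact (CpQuot.Congr.isSimple_iff ((QuotientGroup.quotientMulEquivOfEq hcen).trans QuotientGroup.quotientBot)).2 hs

/-- **`PSp_2m(q)`, `q` even.** -/
theorem not_good_psp (hF : Even (Fintype.card F)) {n : ℕ} (hn : 2 ≤ n) (h2 : n = 2 → 3 ≤ Fintype.card F) {G : Type u}
    [Group G] (e : G ≃* PSp n F) : ¬ Good G := by
  intro hG
  have := hG.fin
  have hs : IsSimpleGroup G := (CpQuot.Congr.isSimple_iff e).2 (S0270.result n hn h2)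
  have hch := charP_two hF
  have hnc : ¬ IsMulCommutative G := by
    apply not_comm_of_card hs
    intro hp
    have := hG.card_dvd
    have h1 : 3 ∣ Nat.card G := Dvd.dvd.trans (by norm_num) this
    rw [Nat.prime_dvd_prime_iff_eq Nat.prime_three hp] at h1
    rw [← h1] at this
    norm_num at this
  obtain ⟨y, K, m, hy, hle, hno, hmn, hkn, ⟨i⟩, hr1, hr2⟩ :=
    GpSp.Row.exists_elt Nat.prime_three (by norm_num) (k := 3) (by norm_num) e hG.three
  have hm : 2 ≤ m := by omega
  -- `3` divides the order of `K`
  have hK3 : 3 ∣ Nat.card K := by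
    obtain ⟨A, -, hA3, hAc⟩ := hr2
    have h3f : Fact (Nat.Prime 3) := ⟨Nat.prime_three⟩
    have hp : IsPGroup 3 A := fun a => ⟨1, Subtype.ext (by simpa using hA3 a a.2)⟩
    obtain ⟨j, hj⟩ := IsPGroup.iff_card.mp hp
    refine Dvd.dvd.trans ?_ (Subgroup.card_subgroup_dvd_card A)
    rw [hj] at hAc ⊢
    apply dvd_pow_self
    rintro rfl
    norm_num at hAc
  by_cases hq : m = 2 ∧ Fintype.card F = 2
  · -- `Sp_6(2)`
    obtain ⟨rfl, hq⟩ := hq
    have hn3 : n = 3 := by
      have : n ≠ 2 := fun h => by have := h2 h; omega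
      omega
    subst hn3
    obtain ⟨i2⟩ := Cfsg.Agent.S0247.result hq
    let i3 : K ≃* Equiv.Perm (Fin 6) := i.trans ((toPSp F 2).symm.trans i2)
    let f : alternatingGroup (Fin 6) →* G :=
      K.subtype.comp (i3.symm.toMonoidHom.comp (alternatingGroup (Fin 6)).subtype)
    have hf : Function.Injective f :=
      K.subtype_injective.comp (i3.symm.injective.comp (alternatingGroup (Fin 6)).subtype_injective)
    have hA6 : Nat.card (alternatingGroup (Fin 6)) = 360 := by
      rw [Nat.card_eq_fintype_card]
      have h5 := two_mul_card_alternatingGroup (α := Fin 6)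
      rw [Fintype.card_perm, Fintype.card_fin] at h5
      have h6 : Nat.factorial 6 = 720 := by decide
      omega
    have hAs : IsSimpleGroup (alternatingGroup (Fin 6)) := alternatingGroup.isSimpleGroup (by simp)
    obtain ⟨j, h1, -, h3⟩ := hG.hom_data hy f hf (fun l => mem_centralizer_singleton_iff.mp (hle (i3.symm l.1).2))
      hAs (not_comm_of_card hAs (by rw [hA6]; norm_num)) (by rw [hA6]; norm_num)
    obtain ⟨k, hk1, hki, hk5⟩ := h3 5 (by norm_num) (by norm_num) (by rw [hA6]; norm_num)
    have hcard : Nat.card G = 1451520 := by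
      rw [Nat.card_congr (e.trans (toPSp F 3).symm).toEquiv]
      have := Cfsg.Agent.S0245.result (F := F) rfl 3
      rw [this, hq]
      decide
    rw [hA6, hcard] at h1
    have hi : j ≤ 2 := by
      by_contra hcon
      push Not at hcon
      have h5 : 3 ^ 3 * 360 ∣ 1451520 := (Nat.mul_dvd_mul_right (pow_dvd_pow 3 hcon) 360).trans h1
      norm_num at h5
    have : k = 1 := by omega
    subst this
    norm_num at hk5
  · have hF2 := Fintype.one_lt_card (α := F)
    have hKs : IsSimpleGroup K := (CpQuot.Congr.isSimple_iff i).2 (S0270.result m hm (fun h => by omega))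
    have hKc : ¬ IsMulCommutative K := by
      apply not_comm_of_card hKs
      intro hp
      obtain ⟨A, hA, hA3, hAc⟩ := hr2
      have h1 := (Nat.prime_dvd_prime_iff_eq Nat.prime_three hp).mp hK3
      have h4 := Nat.le_of_dvd Nat.card_pos (Subgroup.card_subgroup_dvd_card A)
      norm_num at hAc
      omega
    exact not_good_of_comp hy (OddTab.isComponentOf_of_normalized hle (quasisimple_of_simple hKs hKc) hno) hK3 hG

end Cfsg.Agent.H320.Kill
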