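import Mathlib
import Cfsg.Agent.H320.Kill.Base
import Cfsg.Agent.Lib.KleinGen
import Cfsg.Agent.Characters.CNBasic
import Cfsg.Agent.CpAutTh.Final

/-!
The Thompson group: the centralizer of an element `x` of order 3 of type `(3, 3)` in `C(a)/O₂(C(a)) ≅ A₉` is not
3-constrained.
-/

set_option autoImplicit false
set_option linter.unusedSectionVars false

namespace Cfsg.Agent.H320.Kill.Thompson

open Subgroup Cfsg
open scoped Pointwise
open Cfsg.Agent.Th.Base Cfsg.Agent.Th.Word Cfsg.Agent.Th.RelWords Cfsg.Agent.Th.PermTab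
  Cfsg.Agent.Th.KOracle Cfsg.Agent.Th.KPerm Cfsg.Agent.Th.NineAct Cfsg.Agent.Th.CStruct
open Cfsg.Agent.KFacts.Th.Mask Cfsg.Agent.KFacts.Th.Struct
open Cfsg.Agent.CpAutTh.Data Cfsg.Agent.CpAutTh.RankOne Cfsg.Agent.CpAutTh.Local
  Cfsg.Agent.CpAutTh.Mid Cfsg.Agent.CpAutTh.SevenAux Cfsg.Agent.CpAutTh.Seven Cfsg.Agent.CpAutTh.ThreePerm
  Cfsg.Agent.CpAutTh.ThreeE Cfsg.Agent.CpAutTh.Three Cfsg.Agent.CpAutTh.ThreeCard

universe u

/-! ### The abstract argument -/

section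

variable {H : Type u} [Group H] [Finite H]

/-- `E` an extraspecial 2-group with centre `⟨s⟩`, normalized by `C(s)`, and a central element `x` of order 3 -/
structure Setup (E : Subgroup H) (s x : H) : Prop where
  ss : s * s = 1
  s1 : s ≠ 1
  sE : s ∈ E
  twoE : IsPGroup 2 E
  comm : ∀ e ∈ E, e * s = s * e
  norm : ∀ y, y * s = s * y → ∀ e ∈ E, y * e * y⁻¹ ∈ E
  cent : ∀ y, y * s = s * y → (∀ e ∈ E, y * e = e * y) → ∃ i : ℕ, y = x ^ i ∨ y = x ^ i * s
  swap : ∀ t ∈ E, t ≠ 1 → t ≠ s → ∃ a ∈ E, a * t * a⁻¹ = t * s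
  gen : ∀ e ∈ E, ∃ r ∈ E, ∃ t ∈ E, r * r = 1 ∧ t * t = 1 ∧ e = r * t
  big : ∃ t ∈ E, t ≠ 1 ∧ t ≠ s
  x3 : orderOf x = 3
  xc : ∀ y, y * x = x * y
  /-- the normal 2-subgroups of `C(s)` are contained in `E` -/
  core : ∀ D : Subgroup H, IsPGroup 2 D → (∀ d ∈ D, d * s = s * d) →
    (∀ y, y * s = s * y → ∀ d ∈ D, y * d * y⁻¹ ∈ D) → D ≤ E
  /-- an involution commuting with another involution is conjugate to `s` -/
  fuse : ∀ n m : H, n * n = 1 → n ≠ 1 → m * m = 1 → m ≠ 1 → m ≠ n → m * n = n * m → ∃ g : H, g * s * g⁻¹ = n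
  /-- the order of `C(s)` -/
  card : ∀ r : ℕ, r.Prime → r ∣ Nat.card ↥(centralizer ({s} : Set H)) → r = 2 ∨ r = 3

variable {E : Subgroup H} {s x : H} (S : Setup E s x)
include S

theorem Setup.exists_e : ∃ e ∈ E, e * e = 1 ∧ e ≠ 1 ∧ e ≠ s := by
  obtain ⟨t, ht, h1, h2⟩ := S.big
  obtain ⟨a, ha, b, hb, haa, hbb, hab⟩ := S.gen t ht
  by_cases ha1 : a = 1
  · refine ⟨b, hb, hbb, ?_, ?_⟩
    · rintro rfl
      exact h1 (by rw [hab, ha1, one_mul])
    · rintro rfl
      exact h2 (by rw [hab, ha1, one_mul])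
  by_cases has : a = s
  · refine ⟨b, hb, hbb, ?_, ?_⟩
    · rintro rfl
      exact h2 (by rw [hab, has, mul_one])
    · rintro rfl
      exact h1 (by rw [hab, has, S.ss])
  · exact ⟨a, ha, haa, ha1, has⟩

theorem Setup.conj_e {e : H} (he : e ∈ E) (hee : e * e = 1) (he1 : e ≠ 1) : ∃ g : H, g * s * g⁻¹ = e := by
  by_cases hs : e = s
  · exact ⟨1, by rw [hs]; group⟩
  · exact S.fuse e s hee he1 S.ss S.s1 (Ne.symm hs) (S.comm e he).symm

/-- normal `3'`-subgroups have odd order -/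
theorem Setup.odd {N : Subgroup H} (hN : N.Normal) (hNc : (Nat.card N).Coprime 3) : Odd (Nat.card N) := by
  have h2 : Fact (Nat.Prime 2) := ⟨Nat.prime_two⟩
  by_contra hodd
  rw [Nat.not_odd_iff_even, even_iff_two_dvd] at hodd
  obtain ⟨e, he, hee, he1, hes⟩ := S.exists_e
  -- a Sylow 2-subgroup containing `E`
  obtain ⟨P, hP⟩ := S.twoE.exists_le_sylow
  have hPN : (P : Subgroup H) ⊓ N ≠ ⊥ := by
    obtain ⟨n, hn⟩ := exists_prime_orderOf_dvd_card' 2 hodd
    have hn2 : IsPGroup 2 (zpowers (n : H)) := by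
      rw [IsPGroup.iff_card]
      exact ⟨1, by rw [pow_one, Nat.card_zpowers, Subgroup.orderOf_coe, hn]⟩
    obtain ⟨Q, hQ⟩ := hn2.exists_le_sylow
    obtain ⟨g, hg⟩ := MulAction.exists_smul_eq H Q P
    intro hbot
    have h3 : g * n * g⁻¹ ∈ (P : Subgroup H) ⊓ N := by
      refine ⟨?_, hN.conj_mem _ n.2 g⟩
      rw [← hg]
      have : MulAut.conj g • (n : H) ∈ MulAut.conj g • (Q : Subgroup H) :=
        Subgroup.smul_mem_pointwise_smul _ _ _ (hQ (mem_zpowers _))
      exact this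
    rw [hbot, mem_bot] at h3
    have h4 : (n : H) = 1 := by
      have : (n : H) = g⁻¹ * (g * n * g⁻¹) * g := by group
      rw [this, h3]; group
    rw [← Subgroup.orderOf_coe, h4, orderOf_one] at hn
    omega
  -- a central involution in `P ∩ N`
  obtain ⟨w, hwPN, hw1, hwP⟩ := Characters.CNBasic.exists_mem_center_of_normal (P : Subgroup H) P.isPGroup'
    ((P : Subgroup H) ⊓ N) (P.isPGroup'.to_le inf_le_left) hPN (fun t ht d hd =>
      ⟨(P : Subgroup H).mul_mem ((P : Subgroup H).mul_mem ht hd.1) ((P : Subgroup H).inv_mem ht),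
        hN.conj_mem _ hd.2 t⟩)
  obtain ⟨n, hnN, hnn, hn1, hnP⟩ : ∃ n ∈ N, n * n = 1 ∧ n ≠ 1 ∧ ∀ t ∈ (P : Subgroup H), t * n = n * t := by
    have h3 : ∃ j, orderOf w = 2 ^ j := by
      obtain ⟨k, hk⟩ := P.isPGroup' ⟨w, hwPN.1⟩
      have hk' : w ^ 2 ^ k = 1 := congrArg Subtype.val hk
      obtain ⟨j, -, hj⟩ := (Nat.dvd_prime_pow Nat.prime_two).1 (orderOf_dvd_of_pow_eq_one hk')
      exact ⟨j, hj⟩
    obtain ⟨j, hj⟩ := h3
    have hj0 : j ≠ 0 := by
      rintro rfl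
      rw [pow_zero, orderOf_eq_one_iff] at hj
      exact hw1 hj
    obtain ⟨i, rfl⟩ := Nat.exists_eq_succ_of_ne_zero hj0
    have h4 : orderOf (w ^ 2 ^ i) = 2 := by
      rw [orderOf_pow' _ (by positivity), hj, Nat.gcd_eq_right (pow_dvd_pow 2 (Nat.le_succ i)), Nat.succ_eq_add_one,
        pow_succ, Nat.mul_div_cancel_left _ (by positivity)]
    refine ⟨w ^ 2 ^ i, pow_mem hwPN.2 _, ?_, ?_, ?_⟩
    · have h5 := pow_orderOf_eq_one (w ^ 2 ^ i)
      rw [h4, pow_two] at h5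
      exact h5
    · intro h5
      rw [h5, orderOf_one] at h4
      omega
    · intro t ht
      exact ((show Commute t w from hwP t ht).pow_right _).eq
  -- `n` is conjugate to `s`, so `s ∈ N`
  have hsN : s ∈ N := by
    have key : ∀ m ∈ E, m * m = 1 → m ≠ 1 → m ≠ n → s ∈ N := by
      intro m hm hmm hm1 hmn
      obtain ⟨g, hg⟩ := S.fuse n m hnn hn1 hmm hm1 hmn (hnP m (hP hm))
      have h3 := hN.conj_mem _ hnN g⁻¹
      have h4 : g⁻¹ * n * g⁻¹⁻¹ = s := by rw [← hg]; group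
      rwa [h4] at h3
    by_cases h3 : s = n
    · rw [h3]; exact hnN
    · exact key s S.sE S.ss S.s1 h3
  have hconjN : ∀ t ∈ E, t * t = 1 → t ∈ N := by
    intro t ht htt
    by_cases ht1 : t = 1
    · rw [ht1]; exact one_mem _
    · obtain ⟨g, hg⟩ := S.conj_e ht htt ht1
      rw [← hg]
      exact hN.conj_mem _ hsN g
  have hEN : E ≤ N := by
    intro t ht
    obtain ⟨a, ha, b, hb, haa, hbb, hab⟩ := S.gen t ht
    rw [hab]
    exact mul_mem (hconjN a ha haa) (hconjN b hb hbb)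
  -- `C_N(s) ≤ E`
  have hD : N ⊓ centralizer ({s} : Set H) ≤ E := by
    refine S.core _ ?_ (fun d hd => mem_centralizer_singleton_iff.mp hd.2) ?_
    · have h3 : Nat.card (N ⊓ centralizer ({s} : Set H) : Subgroup H) ∣ Nat.card ↥(centralizer ({s} : Set H)) :=
        Subgroup.card_dvd_of_le inf_le_right
      have h4 : Nat.card (N ⊓ centralizer ({s} : Set H) : Subgroup H) ∣ Nat.card N :=
        Subgroup.card_dvd_of_le inf_le_left
      rw [IsPGroup.iff_card]
      refine ⟨_, Nat.eq_prime_pow_of_unique_prime_dvd Nat.card_pos.ne' ?_⟩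
      intro r hr hrd
      rcases S.card r hr (hrd.trans h3) with h5 | h5
      · exact h5
      · exfalso
        rw [h5] at hrd
        exact (Nat.Prime.coprime_iff_not_dvd Nat.prime_three).mp hNc.symm (hrd.trans h4)
    · intro y hy d hd
      refine ⟨hN.conj_mem _ hd.1 y, mem_centralizer_singleton_iff.mpr ?_⟩
      have h3 : Commute y s := hy
      have h4 : Commute d s := mem_centralizer_singleton_iff.mp hd.2
      exact ((h3.mul_left h4).mul_left h3.inv_left).eq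
  obtain ⟨g, hg⟩ := S.conj_e he hee he1
  have hge : g⁻¹ * e * g = s := by rw [← hg]; group
  have hcse : e * s = s * e := S.comm e he
  -- `s' = g⁻¹ s g`
  have hs'E : g⁻¹ * s * g ∈ E := by
    apply hD
    refine ⟨?_, mem_centralizer_singleton_iff.mpr ?_⟩
    · have := hN.conj_mem _ hsN g⁻¹
      rwa [inv_inv] at this
    · calc g⁻¹ * s * g * s = g⁻¹ * s * g * (g⁻¹ * e * g) := by rw [hge]
        _ = g⁻¹ * (s * e) * g := by group
        _ = g⁻¹ * (e * s) * g := by rw [hcse]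
        _ = g⁻¹ * e * g * (g⁻¹ * s * g) := by group
        _ = s * (g⁻¹ * s * g) := by rw [hge]
  obtain ⟨b', hb'E, hb'⟩ := S.swap _ hs'E (by
    intro h3
    apply S.s1
    have : s = g * (g⁻¹ * s * g) * g⁻¹ := by group
    rw [this, h3]; group) (by
    intro h3
    apply hes
    have : e = g * (g⁻¹ * e * g) * g⁻¹ := by group
    rw [this, hge]
    nth_rewrite 1 [← h3]
    group)
  set b := g * b' * g⁻¹ with hb
  have hbN : b ∈ N := hN.conj_mem _ (hEN hb'E) g
  have hbs : b * s * b⁻¹ = s * e := by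
    calc b * s * b⁻¹ = g * (b' * (g⁻¹ * s * g) * b'⁻¹) * g⁻¹ := by rw [hb]; group
      _ = g * (g⁻¹ * s * g * s) * g⁻¹ := by rw [hb']
      _ = s * (g * s * g⁻¹) := by group
      _ = s * e := by rw [hg]
  have hbe : b * e * b⁻¹ = e := by
    have h3 : b' * s * b'⁻¹ = s := by rw [S.comm b' hb'E]; group
    calc b * e * b⁻¹ = g * (b' * (g⁻¹ * e * g) * b'⁻¹) * g⁻¹ := by rw [hb]; group
      _ = g * (b' * s * b'⁻¹) * g⁻¹ := by rw [hge]
      _ = e := by rw [h3, hg]
  obtain ⟨a, haE, ha⟩ := S.swap e he he1 hes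
  have has : a * s * a⁻¹ = s := by rw [S.comm a haE]; group
  set c := a * b with hc
  have hcN : c ∈ N := mul_mem (hEN haE) hbN
  have hcs : c * s * c⁻¹ = e := by
    calc c * s * c⁻¹ = a * (b * s * b⁻¹) * a⁻¹ := by rw [hc]; group
      _ = a * (s * e) * a⁻¹ := by rw [hbs]
      _ = (a * s * a⁻¹) * (a * e * a⁻¹) := by group
      _ = s * (e * s) := by rw [has, ha]
      _ = s * (s * e) := by rw [hcse]
      _ = e := by rw [← mul_assoc, S.ss, one_mul]
  have hce : c * e * c⁻¹ = e * s := by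
    calc c * e * c⁻¹ = a * (b * e * b⁻¹) * a⁻¹ := by rw [hc]; group
      _ = e * s := by rw [hbe, ha]
  have hc3 : c ^ 3 * s * (c ^ 3)⁻¹ = s := by
    calc c ^ 3 * s * (c ^ 3)⁻¹ = c * (c * (c * s * c⁻¹) * c⁻¹) * c⁻¹ := by rw [pow_succ, pow_two]; group
      _ = c * (e * s) * c⁻¹ := by rw [hcs, hce]
      _ = (c * e * c⁻¹) * (c * s * c⁻¹) := by group
      _ = e * s * e := by rw [hce, hcs]
      _ = s := by rw [hcse, mul_assoc, hee, mul_one]
  have hcomm3 : Commute (c ^ 3) s := mul_inv_eq_iff_eq_mul.mp hc3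
  have h3 : 3 ∣ orderOf c := by
    by_contra h4
    have h5 : orderOf c % 3 = 1 ∨ orderOf c % 3 = 2 := by omega
    have h6 : c ^ (orderOf c % 3) * s * (c ^ (orderOf c % 3))⁻¹ = s := by
      have h7 : c ^ (orderOf c % 3) = ((c ^ 3) ^ (orderOf c / 3))⁻¹ := by
        rw [eq_inv_iff_mul_eq_one, ← pow_mul, ← pow_add, Nat.mod_add_div, pow_orderOf_eq_one]
      rw [h7]
      have h8 : Commute ((c ^ 3) ^ (orderOf c / 3))⁻¹ s := (hcomm3.pow_left _).inv_left
      rw [h8.eq]; group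
    rcases h5 with h5 | h5
    · rw [h5, pow_one, hcs] at h6
      exact hes h6
    · rw [h5] at h6
      have h7 : c ^ 2 * s * (c ^ 2)⁻¹ = e * s := by
        calc c ^ 2 * s * (c ^ 2)⁻¹ = c * (c * s * c⁻¹) * c⁻¹ := by rw [pow_two]; group
          _ = e * s := by rw [hcs, hce]
      rw [h7] at h6
      exact he1 (mul_eq_right.mp h6)
  have h4 : orderOf c ∣ Nat.card N := by
    have := Subgroup.orderOf_dvd_natCard N hcN
    exact this
  exact (Nat.Prime.coprime_iff_not_dvd Nat.prime_three).mp hNc.symm (h3.trans h4)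

/-- the group is not 3-constrained -/
theorem Setup.not_pConstrained : ¬ IsPConstrained 3 H := by
  have hp3 : Fact (Nat.Prime 3) := ⟨Nat.prime_three⟩
  intro hcon
  obtain ⟨e, he, hee, he1, hes⟩ := S.exists_e
  obtain ⟨g, hg⟩ := S.conj_e he hee he1
  have hcse : e * s = s * e := S.comm e he
  obtain ⟨g', hg'⟩ := S.conj_e (mul_mem he S.sE) (by
      calc e * s * (e * s) = e * (s * e) * s := by group
        _ = (e * e) * (s * s) := by rw [← hcse]; group
        _ = 1 := by rw [hee, S.ss, one_mul]) (by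
      intro h
      apply hes
      have h1 : e = s⁻¹ := eq_inv_of_mul_eq_one_left h
      rw [h1, inv_eq_of_mul_eq_one_right S.ss])
  -- generation
  have key : ∀ M Z : Subgroup H, M.Normal → Z.Normal → Odd (Nat.card M) → M ⊓ centralizer ({s} : Set H) ≤ Z →
      M ≤ Z := by
    intro M Z hM hZ hodd h1
    have h2 : ∀ k t : H, k * s * k⁻¹ = t → M ⊓ centralizer ({t} : Set H) ≤ Z := by
      intro k t hk y hy
      have h3 : k⁻¹ * y * k ∈ M ⊓ centralizer ({s} : Set H) := by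
        refine ⟨?_, mem_centralizer_singleton_iff.mpr ?_⟩
        · have := hM.conj_mem _ hy.1 k⁻¹
          rwa [inv_inv] at this
        · have h4 : y * t = t * y := mem_centralizer_singleton_iff.mp hy.2
          rw [← hk] at h4
          calc k⁻¹ * y * k * s = k⁻¹ * (y * (k * s * k⁻¹)) * k := by group
            _ = k⁻¹ * (k * s * k⁻¹ * y) * k := by rw [h4]
            _ = s * (k⁻¹ * y * k) := by group
      have h4 := hZ.conj_mem _ (h1 h3) k
      have h5 : k * (k⁻¹ * y * k) * k⁻¹ = y := by group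
      rwa [h5] at h4
    exact Lib.KleinGen.le_of_klein M Z hodd s e S.ss hee hcse.symm (fun y hy => hM.conj_mem _ hy s)
      (fun y hy => hM.conj_mem _ hy e) h1 (h2 g e hg) (h2 g' (s * e) (by rw [hg', hcse]))
  -- `O_{3'}(H) = 1`
  have hN : pPrimeCore 3 H = ⊥ := by
    have hNn : (pPrimeCore 3 H).Normal := Lib.Cores.pPrimeCore_normal 3
    have hNc : (Nat.card (pPrimeCore 3 H)).Coprime 3 := Lib.Cores.pPrimeCore_coprime 3
    have hodd := S.odd hNn hNc
    rw [eq_bot_iff]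
    refine key _ _ hNn inferInstance hodd ?_
    rw [le_bot_iff, ← Subgroup.card_eq_one]
    by_contra h1
    obtain ⟨r, hr, hrd⟩ := Nat.exists_prime_and_dvd h1
    have h2 : r ∣ Nat.card (pPrimeCore 3 H) := hrd.trans (Subgroup.card_dvd_of_le inf_le_left)
    rcases S.card r hr (hrd.trans (Subgroup.card_dvd_of_le inf_le_right)) with h5 | h5
    · rw [h5] at h2
      exact (Nat.not_even_iff_odd.mpr hodd) (even_iff_two_dvd.mpr h2)
    · rw [h5] at h2
      exact (Nat.Prime.coprime_iff_not_dvd Nat.prime_three).mp hNc.symm h2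
  have hC := (PLocal.PConstrained.isPConstrained_iff_of_pPrimeCore_eq_bot hN).mp hcon
  have hQp : IsPGroup 3 (pCore 3 H) := Lib.Cores.pCore_isPGroup 3
  have hQn : (pCore 3 H).Normal := Lib.Cores.pCore_normal 3
  have hZn : (zpowers x).Normal := by
    constructor
    rintro n ⟨k, rfl⟩ g
    refine ⟨k, ?_⟩
    have h1 : Commute g x := S.xc g
    have := h1.zpow_right k
    show x ^ k = g * x ^ k * g⁻¹
    rw [this.eq]; group
  have hQE : pCore 3 H ⊓ E = ⊥ := by
    obtain ⟨i, hi⟩ := IsPGroup.iff_card.mp hQp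
    obtain ⟨j, hj⟩ := IsPGroup.iff_card.mp S.twoE
    have : Disjoint (pCore 3 H) E := by
      apply Subgroup.disjoint_of_coprime_natCard
      rw [hi, hj]
      exact Nat.Coprime.pow i j (by norm_num)
    exact this.eq_bot
  have hsx : ∀ i : ℕ, x ^ i ≠ s := by
    intro i h1
    have h2 : s ^ 3 = 1 := by
      rw [← h1, ← pow_mul, mul_comm, pow_mul, ← S.x3, pow_orderOf_eq_one, one_pow]
    apply S.s1
    rw [pow_succ, pow_two, S.ss, one_mul] at h2
    exact h2
  have hQ : pCore 3 H ≤ zpowers x := by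
    obtain ⟨i, hi⟩ := IsPGroup.iff_card.mp hQp
    refine key _ _ hQn hZn (by rw [hi]; exact Odd.pow (by decide)) ?_
    rintro y ⟨hyQ, hys⟩
    replace hys : y * s = s * y := mem_centralizer_singleton_iff.mp hys
    replace hyQ : y ∈ pCore 3 H := hyQ
    have h1 : ∀ e ∈ E, y * e = e * y := by
      intro e he
      have h2 : y * e * y⁻¹ * e⁻¹ ∈ pCore 3 H ⊓ E := by
        refine ⟨?_, E.mul_mem (S.norm y hys e he) (E.inv_mem he)⟩
        have h3 := (pCore 3 H).mul_mem hyQ (hQn.conj_mem _ ((pCore 3 H).inv_mem hyQ) e)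
        have h4 : y * (e * y⁻¹ * e⁻¹) = y * e * y⁻¹ * e⁻¹ := by group
        rwa [h4] at h3
      rw [hQE, mem_bot] at h2
      exact mul_inv_eq_iff_eq_mul.mp (mul_inv_eq_one.mp h2)
    obtain ⟨i, h2 | h2⟩ := S.cent y hys h1
    · rw [h2]
      exact pow_mem (mem_zpowers x) _
    · exfalso
      have hxQ : x ∈ pCore 3 H := by
        have : zpowers x ≤ pCore 3 H := Lib.Cores.le_pCore hZn (by
          rw [IsPGroup.iff_card]
          exact ⟨1, by rw [pow_one, Nat.card_zpowers, S.x3]⟩)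
        exact this (mem_zpowers x)
      have hsQ : s ∈ pCore 3 H := by
        have h3 : s = (x ^ i)⁻¹ * y := by rw [h2, inv_mul_cancel_left]
        rw [h3]
        exact mul_mem (inv_mem (pow_mem hxQ i)) hyQ
      have h3 : s ∈ pCore 3 H ⊓ E := ⟨hsQ, S.sE⟩
      rw [hQE, mem_bot] at h3
      exact S.s1 h3
  have h1 : s ∈ zpowers x := by
    apply hQ
    apply hC
    rw [mem_centralizer_iff]
    intro y hy
    obtain ⟨k, rfl⟩ := mem_zpowers_iff.mp (hQ hy)
    have h2 : Commute s x := S.xc s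
    exact (h2.zpow_right k).eq.symm
  obtain ⟨i, hi⟩ := (mem_powers_iff_mem_zpowers.mpr h1)
  exact hsx i hi

end

section

variable {G : Type u} [Group G] {γ : ℕ → G} (h : Ctx γ)
  (hone : ∀ u : G, orderOf u = 2 → ∃ g : G, g * u * g⁻¹ = γ 1)

theorem eq_one_of_pow {π : Equiv.Perm (Fin 9)} (h3 : π ^ 3 = 1) {n : ℕ} (h2 : π ^ 2 ^ n = 1) : π = 1 := by
  rw [← orderOf_eq_one_iff]
  have h4 := orderOf_dvd_of_pow_eq_one h3
  have h5 := orderOf_dvd_of_pow_eq_one h2
  exact Nat.Coprime.eq_one_of_dvd (Nat.Coprime.coprime_dvd_left h4 (Nat.Coprime.pow_right n (by norm_num))) h5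

include h in
theorem comm_cases {u t : G} (hu : u ∈ E γ) (ht : t ∈ E γ) : u * t = t * u ∨ u * t * u⁻¹ = t * γ 1 := by
  have key : ∀ x ∈ E γ, x * x = 1 ∨ x * x = γ 1 := fun x hx =>
    Cfsg.Agent.Th.NineExtra.sq_mem h.data (E_le h hx)
  have hc : ∀ x ∈ E γ, x * γ 1 = γ 1 * x := fun x hx => (h.Q_comm (E_le h hx)).symm
  have haa := h.aa
  have hai : (γ 1)⁻¹ = γ 1 := inv_eq_of_mul_eq_one_right haa
  have h1 := key _ (mul_mem hu ht)
  have h2 := key _ hu
  have h3 := key _ ht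
  have h4 : t⁻¹ * (u * u)⁻¹ = (u * u)⁻¹ * t⁻¹ := by
    rcases h2 with h2 | h2
    · rw [h2]; group
    · rw [h2, hai, inv_mul_eq_iff_eq_mul, ← mul_assoc, hc t ht, mul_assoc, mul_inv_cancel, mul_one]
  have h5 : u * t * u⁻¹ * t⁻¹ = (u * t * (u * t)) * (u * u)⁻¹ * (t * t)⁻¹ := by
    calc u * t * u⁻¹ * t⁻¹ = (u * t * (u * t)) * (t⁻¹ * (u * u)⁻¹) * t⁻¹ := by group
      _ = (u * t * (u * t)) * (u * u)⁻¹ * (t * t)⁻¹ := by rw [h4]; group
  have h6 : u * t * u⁻¹ * t⁻¹ = 1 ∨ u * t * u⁻¹ * t⁻¹ = γ 1 := by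
    rw [h5]
    rcases h1 with h1 | h1 <;> rcases h2 with h2 | h2 <;> rcases h3 with h3 | h3 <;> rw [h1, h2, h3] <;>
      simp [hai, haa]
  rcases h6 with h6 | h6
  · left
    exact mul_inv_eq_iff_eq_mul.mp (mul_inv_eq_one.mp h6)
  · right
    rw [mul_inv_eq_iff_eq_mul] at h6
    rw [h6, hc t ht]

include h hone in
theorem setup {f : sub γ isC →* alternatingGroup (Fin 9)} (F : Epi γ f) :
    Setup (EH γ) (s0 h) (Cfsg.Agent.CpAutTh.Three.x0 : HH γ) where
  ss := by
    rw [← pow_two, ← order_s0 h, pow_orderOf_eq_one]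
  s1 := by
    intro h1
    have h2 := order_s0 h
    rw [h1, orderOf_one] at h2
    omega
  sE := mem_EH.2 h.a_mem
  twoE := EH_two h
  comm := fun e he => EH_s0 h he
  norm := fun y hy e he => EH_norm h hy he
  cent := fun y hy hE => cent_EH h F hy hE
  swap := by
    intro t ht ht1 hts
    have htE : (t : G) ∈ E γ := ⟨mem_EH.1 ht, t.2⟩
    by_contra hcon
    have h1 : ∀ z ∈ E γ, (t : G) * z = z * t := by
      intro z hz
      rcases comm_cases h hz htE with h2 | h2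
      · exact h2.symm
      · exfalso
        apply hcon
        exact ⟨⟨z, E_le_H hz⟩, mem_EH.2 hz.1, Subtype.ext h2⟩
    rcases cent_in_E h htE h1 with h2 | h2
    · exact ht1 (Subtype.ext h2)
    · exact hts (Subtype.ext h2)
  gen := by
    intro e he
    obtain ⟨a, ha, b, hb, haa, hbb, hab⟩ := prod_inv h (q := (e : G)) ⟨mem_EH.1 he, e.2⟩
    exact ⟨⟨a, E_le_H ha⟩, mem_EH.2 ha.1, ⟨b, E_le_H hb⟩, mem_EH.2 hb.1, Subtype.ext haa, Subtype.ext hbb,
      Subtype.ext hab⟩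
  big := by
    refine ⟨⟨cc γ 0, E_le_H (c_mem_E h (by simp))⟩, mem_EH.2 (c_mem_E h (i := 0) (by simp)).1, ?_, ?_⟩
    · intro h2
      have h3 : cc γ 0 = 1 := congrArg Subtype.val h2
      have h4 := h.data.com 0 1 (by decide)
      rw [h3, one_mul, mul_one] at h4
      exact h.a1 (mul_eq_right.mp h4.symm)
    · intro h2
      have h3 : cc γ 0 = γ 1 := congrArg Subtype.val h2
      have h4 := h.data.com 0 1 (by decide)
      have h5 := h.data.ac 1
      rw [h3, ← h5] at h4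
      exact h.a1 (mul_eq_right.mp h4.symm)
  x3 := by
    have := o33 h F
    rw [Subgroup.orderOf_mk] at this
    unfold Cfsg.Agent.CpAutTh.Three.x0
    rw [Subgroup.orderOf_mk]
    exact this
  xc := fun y => mem_center_iff.1 x0_center y
  core := by
    intro D hD hDs hDn d hd
    have hds := hDs d hd
    obtain ⟨i, k, e, j, q, hq, hyq, hfy⟩ := exists_form_C h F (comm_a h hds) (comm_x d)
    have he2 : ∀ e : Fin 2, e = 0 ∨ e = 1 := by decide
    rcases he2 e with rfl | rfl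
    · obtain ⟨n, hn⟩ := hD ⟨d, hd⟩
      have hn' : d ^ 2 ^ n = 1 := congrArg Subtype.val hn
      have h2 : (⟨(d : G), h.mem_C.2 (comm_a h hds)⟩ : sub γ isC) ^ 2 ^ n = 1 :=
        Subtype.ext (congrArg (Subtype.val : HH γ → G) hn')
      have hfy' : ((f ⟨(d : G), h.mem_C.2 (comm_a h hds)⟩ : alternatingGroup (Fin 9)) : Equiv.Perm (Fin 9)) =
          sg ^ (i : ℕ) * cg ^ (k : ℕ) * bg ^ (j : ℕ) := by
        rw [hfy]
        simp
      have h3 : ((f ⟨(d : G), h.mem_C.2 (comm_a h hds)⟩ : alternatingGroup (Fin 9)) : Equiv.Perm (Fin 9)) ^ 2 ^ n =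
          1 := by
        rw [← Subgroup.coe_pow, ← map_pow, h2, map_one]
        rfl
      have h4 := eq_one_of_pow (by rw [hfy']; exact form_three i k j) h3
      have h5 : f ⟨(d : G), h.mem_C.2 (comm_a h hds)⟩ = 1 := Subtype.ext h4
      exact mem_EH.2 ((mem_ker F).1 (MonoidHom.mem_ker.2 h5))
    · exfalso
      obtain ⟨c, hc, hfc⟩ := exists_lift_c h F
      have hw : d * c * d⁻¹ * c⁻¹ ∈ D := by
        have h2 := D.mul_mem hd (hDn c hc _ (D.inv_mem hd))
        have h3 : d * (c * d⁻¹ * c⁻¹) = d * c * d⁻¹ * c⁻¹ := by group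
        rwa [h3] at h2
      have hws := hDs _ hw
      obtain ⟨n, hn⟩ := hD ⟨_, hw⟩
      have hn' : (d * c * d⁻¹ * c⁻¹) ^ 2 ^ n = 1 := congrArg Subtype.val hn
      have h2 : (⟨((d * c * d⁻¹ * c⁻¹ : HH γ) : G), h.mem_C.2 (comm_a h hws)⟩ : sub γ isC) ^ 2 ^ n = 1 :=
        Subtype.ext (congrArg (Subtype.val : HH γ → G) hn')
      have h3 : (⟨((d * c * d⁻¹ * c⁻¹ : HH γ) : G), h.mem_C.2 (comm_a h hws)⟩ : sub γ isC) =
          ⟨(d : G), h.mem_C.2 (comm_a h hds)⟩ * ⟨(c : G), h.mem_C.2 (comm_a h hc)⟩ *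
            ⟨(d : G), h.mem_C.2 (comm_a h hds)⟩⁻¹ * ⟨(c : G), h.mem_C.2 (comm_a h hc)⟩⁻¹ := rfl
      have hfy' : ((f ⟨(d : G), h.mem_C.2 (comm_a h hds)⟩ : alternatingGroup (Fin 9)) : Equiv.Perm (Fin 9)) =
          sg ^ (i : ℕ) * cg ^ (k : ℕ) * ug * bg ^ (j : ℕ) := by
        rw [hfy]
        simp
      have hfw : ((f ⟨((d * c * d⁻¹ * c⁻¹ : HH γ) : G), h.mem_C.2 (comm_a h hws)⟩ : alternatingGroup (Fin 9)) :
          Equiv.Perm (Fin 9)) = cg := by
        rw [h3, map_mul, map_mul, map_mul, map_inv, map_inv]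
        simp only [Subgroup.coe_mul, Subgroup.coe_inv]
        rw [hfy', hfc]
        exact comm_form i k j
      have h4 : cg ^ 2 ^ n = 1 := by
        rw [← hfw, ← Subgroup.coe_pow, ← map_pow, h2, map_one]
        rfl
      have h5 := eq_one_of_pow orders.2.1 h4
      have h6 : cg ^ ((1 : Fin 3) : ℕ) = sg ^ ((0 : Fin 3) : ℕ) := by
        rw [h5]
        simp
      exact absurd (cg_sg 1 0 h6) (by decide)
  fuse := by
    intro n m hnn hn1 hmm hm1 hmn hcomm
    have hn2 : orderOf (n : G) = 2 := by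
      rw [Subgroup.orderOf_coe]
      exact orderOf_eq_prime (by rw [pow_two]; exact hnn) hn1
    have hm2 : orderOf (m : G) = 2 := by
      rw [Subgroup.orderOf_coe]
      exact orderOf_eq_prime (by rw [pow_two]; exact hmm) hm1
    have hx : orderOf (ev γ X33) = 3 := by
      have := o33 h F
      rwa [Subgroup.orderOf_mk] at this
    obtain ⟨g, h1, h2⟩ := exists_pair h hone hx hn2 (comm_x n)
      (P := fun z => z = ev γ X3 ∨ z = ev γ X33 ∨ z = ev γ X333) (fun y hy => by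
        obtain ⟨c, hc | hc | hc⟩ := exists_rep_three h F hy
        · exact ⟨c, Or.inl (congrArg Subtype.val hc)⟩
        · exact ⟨c, Or.inr (Or.inl (congrArg Subtype.val hc))⟩
        · exact ⟨c, Or.inr (Or.inr (congrArg Subtype.val hc))⟩)
    have hcomm' : (m : G) * n = n * m := congrArg Subtype.val hcomm
    have hm' : orderOf (g * m * g⁻¹) = 2 := by
      rw [← hm2]
      exact MulEquiv.orderOf_eq (MulAut.conj g) (m : G)
    have hma : g * m * g⁻¹ * γ 1 = γ 1 * (g * m * g⁻¹) := by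
      rw [← h1]
      calc g * m * g⁻¹ * (g * n * g⁻¹) = g * (m * n) * g⁻¹ := by group
        _ = g * (n * m) * g⁻¹ := by rw [hcomm']
        _ = g * n * g⁻¹ * (g * m * g⁻¹) := by group
    have hmx : g * m * g⁻¹ * (g * ev γ X33 * g⁻¹) = g * ev γ X33 * g⁻¹ * (g * m * g⁻¹) := by
      calc g * m * g⁻¹ * (g * ev γ X33 * g⁻¹) = g * (m * ev γ X33) * g⁻¹ := by group
        _ = g * (ev γ X33 * m) * g⁻¹ := by rw [comm_x m]
        _ = g * ev γ X33 * g⁻¹ * (g * m * g⁻¹) := by group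
    have key : g * m * g⁻¹ = γ 1 → False := by
      intro h3
      apply hmn
      apply Subtype.ext
      rw [← h1] at h3
      exact mul_left_cancel (mul_right_cancel h3)
    rcases h2 with h2 | h2 | h2
    · rw [h2] at hmx
      exact (key (inv_three h F hm' hma hmx)).elim
    · have hg : g ∈ centralizer ({ev γ X33} : Set G) := by
        rw [mem_centralizer_singleton_iff]
        exact mul_inv_eq_iff_eq_mul.1 h2
      refine ⟨⟨g⁻¹, inv_mem hg⟩, Subtype.ext ?_⟩
      change g⁻¹ * γ 1 * g⁻¹⁻¹ = n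
      rw [← h1]
      group
    · rw [h2] at hmx
      exact (key (inv_triple h F hm' hma hmx)).elim
  card := by
    intro r hr hrd
    rw [card_Y h] at hrd
    have h1 : r ∣ 2 ^ 6 * 3 ^ 3 := by norm_num; exact hrd
    rcases (Nat.Prime.dvd_mul hr).1 h1 with h2 | h2
    · exact Or.inl ((Nat.prime_dvd_prime_iff_eq hr Nat.prime_two).1 (hr.dvd_of_dvd_pow h2))
    · exact Or.inr ((Nat.prime_dvd_prime_iff_eq hr Nat.prime_three).1 (hr.dvd_of_dvd_pow h2))

include h hone in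
theorem not_pConstrained : orderOf (ev γ X33) = 3 ∧ ¬ IsPConstrained 3 (HH γ) := by
  have hfin := h.fin
  obtain ⟨f, F⟩ := Cfsg.Agent.CpAutTh.Local.exists_epi h
  refine ⟨?_, (setup h hone F).not_pConstrained⟩
  have := o33 h F
  rwa [Subgroup.orderOf_mk] at this

end

end Cfsg.Agent.H320.Kill.Thompson

namespace Cfsg.Agent.H320.Kill

/-- **`Th`** -/
theorem th {X : Type*} [Group X] (h : Cfsg.Spor.IsoTh X) : ¬ Good X := by
  obtain ⟨e⟩ := h
  intro hg
  obtain ⟨h1, h2⟩ := Thompson.not_pConstrained Cfsg.Agent.KFacts.Th.Main.ctx Cfsg.Agent.CpAutTh.Main.hone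
  exact h2 ((hg.congr e).con _ h1)

end Cfsg.Agent.H320.Kill
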