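import Cfsg.Agent.Mrg.Omega.TwoF.Tits
import Cfsg.Agent.OddRank.SzTits
import Cfsg.Agent.H320.Kill.Base

/-!
# The Tits group (helper320)

Explicit words for two elements of order three which generate an extraspecial group of order `27`.
-/

set_option autoImplicit false

namespace Cfsg.Agent.H320.Kill

open Subgroup Cfsg.Agent.ChevalleyStructure.Tits.Pack Cfsg.Agent.ChevalleyStructure.Tits.Data
  Cfsg.Agent.ChevalleyStructure.Tits.Sat Cfsg.Agent.ChevalleyStructure.Tits.Final
  Cfsg.Agent.ChevalleyStructure.Tits.Mat Cfsg.Agent.ChevalleyStructure.Tits.Order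
  Cfsg.Agent.ChevalleyStructure.Tits.Main
open Cfsg.Agent.Omega.TwoF.Tits
open scoped MatrixGroups

universe u

namespace TitsW

/-- a Heisenberg pair -/
def Heis (G : Type u) [Group G] : Prop :=
  ∃ a b z : G, a ^ 3 = 1 ∧ b ^ 3 = 1 ∧ z ^ 3 = 1 ∧ z ≠ 1 ∧ a * b = z * b * a ∧ a * z = z * a ∧ b * z = z * b

theorem Heis.congr {G : Type u} {K : Type*} [Group G] [Group K] (h : Heis G) (e : K ≃* G) : Heis K := by
  obtain ⟨a, b, z, h1, h2, h3, h4, h5, h6, h7⟩ := h
  refine ⟨e.symm a, e.symm b, e.symm z, ?_, ?_, ?_, ?_, ?_, ?_, ?_⟩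
  · rw [← map_pow, h1, map_one]
  · rw [← map_pow, h2, map_one]
  · rw [← map_pow, h3, map_one]
  · intro h
    exact h4 (e.symm.injective (by rw [h, map_one]))
  · rw [← map_mul, ← map_mul, ← map_mul, h5]
  · rw [← map_mul, ← map_mul, h6]
  · rw [← map_mul, ← map_mul, h7]

/-- words -/
def u1 : List ℕ := [8, 0]
/-- words -/
def u1i : List ℕ := [0, 8]
/-- words -/
def u2 : List ℕ := [9, 0, 8, 7, 7, 9, 1, 8, 0, 1, 1, 1, 9, 7, 7, 8, 0, 9]
/-- words -/
def u2i : List ℕ := [9, 0, 8, 7, 7, 9, 1, 0, 8, 1, 1, 1, 9, 7, 7, 8, 0, 9]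
/-- words -/
def u3 : List ℕ := u1 ++ u2 ++ u1i ++ u2i

theorem heis_C : Heis C := by
  refine ⟨⟨wH u1, wH_mem (by decide +kernel)⟩, ⟨wH u2, wH_mem (by decide +kernel)⟩,
    ⟨wH u3, wH_mem (by decide +kernel)⟩, ?_, ?_, ?_, ?_, ?_, ?_, ?_⟩
  · apply Subtype.ext
    show wH u1 ^ 3 = 1
    rw [← wH_rep]
    exact rel (v := []) (by decide +kernel)
  · apply Subtype.ext
    show wH u2 ^ 3 = 1
    rw [← wH_rep]
    exact rel (v := []) (by decide +kernel)
  · apply Subtype.ext
    show wH u3 ^ 3 = 1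
    rw [← wH_rep]
    exact rel (v := []) (by decide +kernel)
  · intro h
    have h0 : wH u3 = 1 := by
      have h1 := congrArg (fun q : C => (q : H0)) h
      exact h1
    have h1 : ((wH u3 : H0) : GL I52 (ZMod 2)) = 1 := by rw [h0]; rfl
    have h2 := coe_wH (l := u3) (by decide +kernel)
    have h3 := not_mem_of_chk (ws := []) (O := [1]) (w := u3) (by decide +kernel)
      (by intro v hv; exact absurd hv (List.not_mem_nil)) (by decide +kernel)
    apply h3
    rw [← h2, h1]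
    exact Subgroup.one_mem _
  · apply Subtype.ext
    show wH u1 * wH u2 = wH u3 * wH u2 * wH u1
    rw [← wH_append, ← wH_append, ← wH_append]
    exact rel (by decide +kernel)
  · apply Subtype.ext
    show wH u1 * wH u3 = wH u3 * wH u1
    rw [← wH_append, ← wH_append]
    exact rel (by decide +kernel)
  · apply Subtype.ext
    show wH u2 * wH u3 = wH u3 * wH u2
    rw [← wH_append, ← wH_append]
    exact rel (by decide +kernel)

theorem heis_aux (T : Subgroup (GL I52 (ZMod 2))) (hT : T = H0) : Heis (commutator T) := by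
  subst hT
  exact heis_C

end TitsW

/-- **the Tits group** -/
theorem tits {G : Type u} [Group G] (h : Cfsg.Lie.IsoTits G) : ¬ Good G := by
  obtain ⟨T, hT, ⟨e⟩⟩ := Cfsg.Agent.Omega.TwoF.TitsAut.exists_equiv h
  obtain ⟨a, b, z, h1, h2, h3, h4, h5, h6, h7⟩ := (TitsW.heis_aux T hT).congr e
  exact not_good_of_heis (by rw [Cfsg.Agent.OddRank.SzTits.tits_card h]; norm_num) h1 h2 h3 h4 h5 h6 h7

end Cfsg.Agent.H320.Kill
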