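import Cfsg.Agent.BiChar.TwDFour
import Cfsg.Agent.S1067
import Cfsg.Agent.H320.Kill.GTwo

/-!
# `³D_4(q)`, `q` even (helper320)
-/

set_option autoImplicit false

namespace Cfsg.Agent.H320.Kill

open Subgroup Cfsg Cfsg.Lie Matrix
open Cfsg.Agent.ChevalleyStructure Cfsg.Agent.ChevalleyStructure.SL2Rep Cfsg.Agent.ChevalleyStructure.SL2Hom
open Cfsg.Agent.Nodes.RGDFoldSL Cfsg.Agent.Nodes.BNOf Cfsg.Agent.Nodes.RGDTwGen Cfsg.Agent.Nodes.RGDFold
open Cfsg.Agent.Nodes.RGDTwD4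
open Cfsg.Agent.BiChar.TwDFour (Ph range_Ph mem_Fx_three)
open Cfsg.Agent.Tits.Roots (sr)
open Cfsg.Agent.ChevalleyStructure.Elts (xG)
open Cfsg.Agent.ChevalleyStructure.TwistedU (rspan rspan_le)

universe u

/-- the root groups `k` and `s` commute -/
def Cm (k s : ℕ) : Prop := k < chevD4.nroots ∧ s < chevD4.nroots ∧ s ≠ k ∧ s ≠ chevD4.neg k ∧ chevD4.commTerms k s = []

instance (k s : ℕ) : Decidable (Cm k s) := by unfold Cm; infer_instance

/-- elements of the root groups `k ∈ o` commute with the root group `s` -/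
theorem comm_rspan {K : Type} [Field K] {o : List ℕ} {s : ℕ} (ho : ∀ k ∈ o, Cm k s) {g y : GL chevD4.Idx K}
    (hg : g ∈ rspan (xG (F := K) hp.inList) {k | k ∈ o}) (hy : y ∈ chevD4.rootSubgroup K s) : g * y = y * g := by
  obtain ⟨t, rfl⟩ := (Elts.mem_rootSubgroup_iff hp.inList _ _).1 hy
  have h1 : rspan (xG (F := K) hp.inList) {k | k ∈ o} ≤ centralizer {xG hp.inList s t} := by
    refine rspan_le _ ?_
    intro r hr u
    obtain ⟨h1, h2, h3, h4, h5⟩ := ho r hr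
    exact mem_centralizer_singleton_iff.mpr (commute_of_nil hp h1 h2 h3 h4 h5 u t).eq
  exact mem_centralizer_singleton_iff.mp (h1 hg)

theorem arith {q k i : ℕ} (hk : 1 ≤ k) (hqk : q = 2 ^ k) (hi : 3 ^ i * (2 ^ (3 * k) * ((2 ^ (3 * k)) ^ 2 - 1)) ∣
    q ^ 12 * (q ^ 2 - 1) * (q ^ 6 - 1) * (q ^ 8 + q ^ 4 + 1)) (h : 3 * k + 1 ≤ i) : False := by
  obtain ⟨a, ha⟩ : ∃ a, q ^ 2 = a + 1 := ⟨q ^ 2 - 1, by
    have : 0 < q ^ 2 := by rw [hqk]; positivity
    omega⟩
  have ha3 : a % 3 = 0 := by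
    have h1 : q ^ 2 = 4 ^ k := by
      rw [hqk, ← pow_mul, show (4 : ℕ) = 2 ^ 2 by norm_num, ← pow_mul, mul_comm]
    have h2 : (4 ^ k) % 3 = 1 := by
      rw [Nat.pow_mod]
      norm_num
    omega
  have ha0 : 0 < a := by
    have : 1 < q ^ 2 := Nat.one_lt_pow (by norm_num) (by rw [hqk]; exact Nat.one_lt_pow (by omega) (by norm_num))
    omega
  have h3 : (2 ^ (3 * k)) = q ^ 3 := by
    rw [hqk, ← pow_mul]
    congr 1
    ring
  have h6 : q ^ 6 = (a + 1) ^ 3 := by rw [← ha, ← pow_mul]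
  have h8 : q ^ 8 = (a + 1) ^ 4 := by rw [← ha, ← pow_mul]
  have h4 : q ^ 4 = (a + 1) ^ 2 := by rw [← ha, ← pow_mul]
  have h12 : q ^ 12 = q ^ 3 * q ^ 9 := by rw [← pow_add]
  have h6' : (q ^ 3) ^ 2 = (a + 1) ^ 3 := by rw [← pow_mul, h6]
  have e1 : (a + 1) ^ 3 - 1 = a * (a ^ 2 + 3 * a + 3) := by
    have : (a + 1) ^ 3 = a * (a ^ 2 + 3 * a + 3) + 1 := by ring
    omega
  have e2 : (a + 1) - 1 = a := by omega
  rw [h3, h6', h12, h6, h8, h4, ha, e1, e2] at hi
  have hpos : 0 < q ^ 3 * (a * (a ^ 2 + 3 * a + 3)) := by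
    have : 0 < q := by rw [hqk]; positivity
    positivity
  have e3 : q ^ 3 * q ^ 9 * a * (a * (a ^ 2 + 3 * a + 3)) * ((a + 1) ^ 4 + (a + 1) ^ 2 + 1) =
      (q ^ 9 * (a * ((a + 1) ^ 4 + (a + 1) ^ 2 + 1))) * (q ^ 3 * (a * (a ^ 2 + 3 * a + 3))) := by ring
  rw [e3] at hi
  have h5 := dvd_of_coprime hqk (Nat.dvd_of_mul_dvd_mul_right hpos hi)
  have e4 : a * ((a + 1) ^ 4 + (a + 1) ^ 2 + 1) = (a * (a ^ 2 + 3 * a + 3)) * (a * (a + 1) + 1) := by ring
  rw [e4] at h5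
  have h7 : Nat.Coprime (3 ^ i) (a * (a + 1) + 1) := by
    apply Nat.Coprime.pow_left
    rw [Nat.Prime.coprime_iff_not_dvd Nat.prime_three]
    intro h9
    have : (a * (a + 1) + 1) % 3 = 1 := by
      rw [Nat.add_mod, Nat.mul_mod, ha3]
      norm_num
    omega
  have h10 : 3 ^ i ∣ 4 ^ (3 * k) - 1 := by
    have : 4 ^ (3 * k) - 1 = a * (a ^ 2 + 3 * a + 3) := by
      rw [← e1, ← h6', ← h3, show (4 : ℕ) = 2 ^ 2 by norm_num, ← pow_mul, ← pow_mul, mul_comm 2]
    rw [this]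
    exact h7.dvd_of_dvd_mul_right h5
  have h11 := three_pow_le (by omega) h10
  have h12 : 3 ^ (3 * k + 1) ≤ 3 ^ i := Nat.pow_le_pow_right (by norm_num) h
  have h13 := nine_mul_lt (m := 3 * k) (by omega)
  omega

/-- **`³D_4(q)`, `q` even.** -/
theorem tw_d4 {K : Type} [Field K] [Fintype K] {q k : ℕ} (hqk : q = 2 ^ k) (hk : 1 ≤ k) (hK : Fintype.card K = q ^ 3)
    {G : Type u} [Group G] (e : G ≃* twistedD4 K q) : ¬ Good G := by
  intro hG0
  have hG := hG0.congr e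
  have hfin := hG.fin
  have h2p : Fact (Nat.Prime 2) := ⟨Nat.prime_two⟩
  have hK2 : Fintype.card K = 2 ^ (3 * k) := by
    rw [hK, hqk, ← pow_mul]
    congr 1
    ring
  have h2 := two_eq_zero_of_card hK2
  have hch : CharP K 2 := CharTwo.of_one_ne_zero_of_two_eq_zero one_ne_zero h2
  have hq : IsPrimePow q := by
    rw [hqk]
    exact Nat.prime_two.isPrimePow.pow (by omega)
  obtain ⟨φ, hφ⟩ := D4Fixed.exists_frob hq hK
  have hle := D4Fixed.twisted_le_fix hK hφ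
  have R := Cfsg.Agent.Nodes.RGDTwD4.rgd (K := K) Cfsg.Agent.BiChar.TwDFour.cs hK hφ 2
  -- the element
  let w : GL chevD4.Idx K := nI hp K (J 0) * nI hp K (J 1)
  have hw : w ∈ twistedD4 K q := by
    refine mul_mem ?_ ?_
    · rw [nI_zero]; exact D4U.na_mem hφ
    · rw [nI_one]; exact D4U.nb_mem hφ
  have hy1 : xG (F := K) hp.inList 14 1 ∈ twistedD4 K q := by
    have h1 : xG (F := K) hp.inList 14 1 = D4Cols.xU 14 1 := Units.ext rfl
    rw [h1]
    exact D4Fixed.x14_mem (one_pow _)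
  have hy2 : xG (F := K) hp.inList 9 1 ∈ twistedD4 K q := by
    have h1 : xG (F := K) hp.inList 9 1 = D4Cols.xU 9 1 := Units.ext rfl
    rw [h1]
    exact D4Fixed.x9_mem (one_pow _)
  have h14 : 14 < chevD4.nroots := by decide
  let Φ := phi (SL2All.good_of_mem chevD4 hp.inList 14 h14) K
  have hy : Φ (el3 K) = xG (F := K) hp.inList 14 1 * xG (F := K) hp.inList 9 1 := by
    rw [el3_eq h2, map_mul, Cfsg.Agent.ETable.Exc.phi_up hp.inList h14, Cfsg.Agent.ETable.Exc.phi_lo hp.inList h14]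
    rfl
  have hy3 : orderOf (Φ (el3 K)) = 3 := by
    rw [orderOf_injective Φ (Cfsg.Agent.GpExc.Rank.phi_injective _ h2), orderOf_el3]
  have hyT : Φ (el3 K) ∈ twistedD4 K q := by
    rw [hy]
    exact mul_mem hy1 hy2
  let x : ↥(twistedD4 K q) := ⟨w * Φ (el3 K) * w⁻¹, mul_mem (mul_mem hw hyT) (inv_mem hw)⟩
  have hx : orderOf x = 3 := by
    rw [← Subgroup.orderOf_coe, ← hy3]
    exact MulEquiv.orderOf_eq (MulAut.conj w) _
  have hcj : ∀ r s, r < chevD4.nroots → wp chevD4 (J 0) (wp chevD4 (J 1) r) = s → ∀ g ∈ chevD4.rootSubgroup K r,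
      w * g * w⁻¹ ∈ chevD4.rootSubgroup K s := by
    intro r s hr hs g hg
    have h1 : nI hp K (J 1) * g * (nI hp K (J 1))⁻¹ ∈ chevD4.rootSubgroup K (wp chevD4 (J 1) r) := by
      rw [← cj_nI hp K (J 1) hr]
      exact Cfsg.Agent.Nodes.Reps.conj_mem_cj.2 hg
    have h2 : nI hp K (J 0) * (nI hp K (J 1) * g * (nI hp K (J 1))⁻¹) * (nI hp K (J 0))⁻¹ ∈
        chevD4.rootSubgroup K (wp chevD4 (J 0) (wp chevD4 (J 1) r)) := by
      rw [← cj_nI hp K (J 0) (wp_lt hp (J 1) hr)]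
      exact Cfsg.Agent.Nodes.Reps.conj_mem_cj.2 h1
    rw [hs] at h2
    have h3 : w * g * w⁻¹ = nI hp K (J 0) * (nI hp K (J 1) * g * (nI hp K (J 1))⁻¹) * (nI hp K (J 0))⁻¹ := by
      show nI hp K (J 0) * nI hp K (J 1) * g * (nI hp K (J 0) * nI hp K (J 1))⁻¹ = _
      group
    rw [h3]
    exact h2
  have hxe : (x : GL chevD4.Idx K) = (w * xG (F := K) hp.inList 14 1 * w⁻¹) * (w * xG (F := K) hp.inList 9 1 * w⁻¹) := by
    show w * Φ (el3 K) * w⁻¹ = _
    rw [hy]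
    group
  have ha := hcj 14 23 (by decide) (by decide +kernel) _ (Elts.xG_mem_rootSubgroup hp.inList 14 (1 : K))
  have hb := hcj 9 0 (by decide) (by decide +kernel) _ (Elts.xG_mem_rootSubgroup hp.inList 9 (1 : K))
  have hXc : Cfsg.Agent.Nodes.RGDTwD4.X φ q (sr 1) ⊔ Cfsg.Agent.Nodes.RGDTwD4.X φ q (-sr 1) ≤ centralizer {x} := by
    have key : ∀ (g : ↥(twistedD4 K q)) (o : List ℕ), (∀ k ∈ o, Cm k 23) → (∀ k ∈ o, Cm k 0) →
        (g : GL chevD4.Idx K) ∈ rspan (xG (F := K) hp.inList) {k | k ∈ o} → g ∈ centralizer {x} := by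
      intro g o h1 h2 hg
      rw [mem_centralizer_singleton_iff]
      apply Subtype.ext
      show (g : GL chevD4.Idx K) * x = x * g
      rw [hxe]
      exact (Commute.mul_right (comm_rspan h1 hg ha) (comm_rspan h2 hg hb)).eq
    refine sup_le ?_ ?_
    · intro g hg
      have h1 : (g : GL chevD4.Idx K) ∈ Cfsg.Agent.Nodes.RGDFold.R chevD4 hp K J (D4Fixed.sig φ) (sr 1) :=
        mem_subgroupOf.mp hg
      rw [R_eq cls1 (by decide +kernel)] at h1
      exact key g _ (by decide +kernel) (by decide +kernel) h1.1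
    · intro g hg
      have h1 : (g : GL chevD4.Idx K) ∈ Cfsg.Agent.Nodes.RGDFold.R chevD4 hp K J (D4Fixed.sig φ) (-sr 1) :=
        mem_subgroupOf.mp hg
      rw [R_eq cls1' (by decide +kernel)] at h1
      exact key g _ (by decide +kernel) (by decide +kernel) h1.1
  -- the field
  let F := Fx φ ((Cfsg.Agent.Nodes.RGDTwNode.D4.rest 1).length + 1)
  have hFK : Nat.card F = 2 ^ (3 * k) := by
    have h1 : Nat.card F = Nat.card K := by
      refine Nat.card_congr (Equiv.subtypeUnivEquiv fun t => mem_Fx_three hK hφ t)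
    rw [h1, Nat.card_eq_fintype_card, hK2]
  have hF2 : (2 : F) = 0 := by
    apply Subtype.ext
    exact h2
  let f := Ph hφ hle 1
  have hr := range_Ph hφ hle hK 1
  have hsF : IsSimpleGroup (SpecialLinearGroup (Fin 2) F) := simple_sl hF2 (by
    rw [hFK]
    calc 4 ≤ 2 ^ 3 := by norm_num
      _ ≤ 2 ^ (3 * k) := Nat.pow_le_pow_right (by norm_num) (by omega))
  have hfi : Function.Injective f := by
    rw [← MonoidHom.ker_eq_bot_iff]
    rcases hsF.eq_bot_or_eq_top_of_normal f.ker inferInstance with h | h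
    · exact h
    · exfalso
      have h3 : f.range = ⊥ := by
        rw [eq_bot_iff]
        rintro _ ⟨g, rfl⟩
        exact mem_bot.mpr (MonoidHom.mem_ker.mp (h.ge (mem_top g)))
      have h4 := R.notp 1
      rw [← hr] at h4
      apply h4
      change IsPGroup 2 ↥f.range
      rw [h3]
      exact IsPGroup.of_bot
  refine not_good_of_sl hFK (by omega) hF2 hx f hfi (fun l => ?_) ?_ hG
  · have h1 : f l ∈ centralizer {x} := by
      apply hXc
      rw [← hr]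
      exact ⟨l, rfl⟩
    exact mem_centralizer_singleton_iff.mp h1
  · intro i hi
    let _ : Fintype F := Fintype.ofFinite F
    rw [Cfsg.Agent.CTwoTab.card_SL_two, Cfsg.Agent.S1067.result (K := K) hq hK, ← Nat.card_eq_fintype_card, hFK] at hi
    by_contra hcon
    exact arith hk hqk hi (by omega)

end Cfsg.Agent.H320.Kill
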