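import Cfsg.Agent.Sigma.Frame
import Cfsg.Agent.S0822
import Cfsg.Agent.H320.Kill.AltTw
import Cfsg.Agent.H320.Kill.SporTwo
import Cfsg.Agent.H320.Kill.SporComp
import Cfsg.Agent.H320.Kill.Mathieu
import Cfsg.Agent.H320.Kill.JThree
import Cfsg.Agent.H320.Kill.Thompson
import Cfsg.Agent.H320.Kill.CoTwo
import Cfsg.Agent.H320.Kill.Unit
import Cfsg.Agent.H320.Kill.Symp
import Cfsg.Agent.H320.Kill.Lin
import Cfsg.Agent.H320.Kill.Orth
import Cfsg.Agent.H320.Kill.Exc
import Cfsg.Agent.H320.Kill.TwESixTwo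
import Cfsg.Agent.H320.Kill.FFourTwo
import Cfsg.Agent.H320.Kill.GTwo
import Cfsg.Agent.H320.Kill.TwDFour
import Cfsg.Agent.H320.Kill.TwFFour
import Cfsg.Agent.H320.Kill.Tits

/-!
# The table: the good groups on `RestList` (helper320)
-/

set_option autoImplicit false

namespace Cfsg.Agent.H320.Kill

open Cfsg Cfsg.Agent.SevenCases Cfsg.Agent.SigTab Cfsg.Agent.Sigma.Frame

universe u

/-- the conclusion of S3248 -/
def Concl (G : Type u) [Group G] : Prop :=
  ∃ (F : Type) (_ : Field F) (_ : Fintype F), Fintype.card F = 3 ∧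
      (Nonempty (G ≃* ↥(Cfsg.Lie.chevG2.group F)) ∨ Nonempty (G ≃* Cfsg.PSp 2 F) ∨
        ∃ (K : Type) (_ : Field K) (_ : Fintype K), Fintype.card K = 9 ∧ Nonempty (G ≃* Cfsg.PSU 4 K 3))

theorem suzuki {G : Type u} [Group G] (h : Lie.IsoSuzuki G) : ¬ Good G := by
  intro hG
  have := hG.fin
  exact not_good_of_rank (Cfsg.Agent.OddRank.SzTits.pRankLE_mono Nat.prime_three (by norm_num)
    (Cfsg.Agent.OddRank.SzTits.suzuki h Nat.prime_three (by norm_num))) hG

/-- **good groups of Lie type in characteristic two** -/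
theorem lie_two {G : Type u} [Group G] (hG : Good G) (h : IsLieTypeChar 2 G) : Concl G := by
  rcases h with h | h | h | h | h | h | h | h | h | h | h
  · -- linear
    obtain ⟨F, iF, iFt, iC, n, hn, hq, ⟨e⟩⟩ := h
    obtain ⟨f, hf1, hf⟩ := card_eq_two_pow (F := F) iC
    exact absurd hG (not_good_psl hf hn e)
  · -- symplectic
    obtain ⟨F, iF, iFt, iC, m, hm, hq, ⟨e⟩⟩ := h
    exact absurd hG (not_good_psp (Sigma.Frame.even_card_of_charP F) hm hq e)
  · -- unitary
    obtain ⟨F, iF, iFt, iC, n, q, hFq, hn, hq, ⟨e⟩⟩ := h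
    obtain ⟨f, hf1, rfl⟩ := exists_two_pow (F := F) two_ne_zero hFq
    by_cases h4 : n = 4 ∧ 2 ^ f = 2
    · obtain ⟨rfl, h4⟩ := h4
      rw [h4] at e hFq
      have : Fact (Nat.Prime 3) := ⟨Nat.prime_three⟩
      obtain ⟨g⟩ := S0822.result (F := F) (K := ZMod 3) (by rw [hFq]; norm_num) (ZMod.card 3)
      exact ⟨ZMod 3, inferInstance, inferInstance, ZMod.card 3, Or.inr (Or.inl ⟨e.trans g⟩)⟩
    · exact absurd (hG.congr e) (not_good_psu hFq rfl hn h4)
  · -- odd-dimensional orthogonal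
    obtain ⟨F, iF, iFt, iC, m, hm, hq, ⟨e⟩⟩ := h
    exact absurd (Sigma.Frame.even_card_of_charP F) (Nat.not_even_iff_odd.2 hq)
  · -- orthogonal of plus type
    obtain ⟨F, iF, iFt, iC, m, hm, ⟨e⟩⟩ := h
    exact absurd hG (not_good_plus hm e)
  · -- orthogonal of minus type
    obtain ⟨F, iF, iFt, iC, m, a, b, hm, hab, ⟨e⟩⟩ := h
    exact absurd hG (not_good_minus hab hm e)
  · -- exceptional
    obtain ⟨F, iF, iFt, iC, h⟩ := h
    obtain ⟨f, hf1, hf⟩ := card_eq_two_pow (F := F) iC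
    have hev := Sigma.Frame.even_card_of_charP F
    rcases h with ⟨h3, ⟨e⟩⟩ | ⟨⟨e⟩⟩ | ⟨⟨e⟩⟩ | ⟨⟨e⟩⟩ | ⟨⟨e⟩⟩
    · refine absurd hG (g2 hf ?_ e)
      by_contra hf2
      have h1 : f = 1 := by omega
      rw [h1] at hf
      omega
    · by_cases hc : Fintype.card F = 2
      · exact absurd hG (f4_two hc e)
      · have h2 := Fintype.one_lt_card (α := F)
        exact absurd hG (f4_gt hev (by omega) e)
    · exact absurd hG (e6 hev e)
    · exact absurd hG (e7 hev e)
    · exact absurd hG (e8 hev e)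
  · -- twisted
    obtain ⟨K, iK, iKt, iC, q, hpp, h⟩ := h
    have hev := Sigma.Frame.even_card_of_charP K
    rcases h with ⟨hKq, ⟨e⟩⟩ | ⟨hKq, ⟨e⟩⟩
    · by_cases hq2 : q = 2
      · subst hq2
        exact absurd hG (twE6_two (by rw [hKq]; norm_num) e)
      · have h2 := hpp.two_le
        exact absurd hG (twE6_gt (Sigma.Frame.even_of_pow (k := 2) (hKq ▸ hev)) hKq (by omega) e)
    · obtain ⟨f, hf1, hqf⟩ := exists_two_pow (F := K) three_ne_zero hKq
      exact absurd hG (tw_d4 hqf hf1 hKq e)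
  · exact absurd hG (suzuki h.2)
  · obtain ⟨K, iK, iKt, m, hm, hK, ⟨e⟩⟩ := h.2
    exact absurd hG (tw_f4 hm hK e)
  · exact absurd h.1 (by norm_num)

/-- **the table** -/
theorem table {G : Type u} [Group G] (hG : Good G) (hN : NotResMore.{u}) (hR : IsOfRestrictedEvenType G)
    (h : RestList G) : Concl G := by
  have hfin := hG.fin
  rcases h with h | h | h | h | h | h | h | h | h | h
  · rcases h with h | ⟨_, h⟩ | ⟨h, _⟩
    · exact lie_two hG h
    · rcases h with ⟨⟨e⟩⟩ | ⟨F, iF, iFt, hc, ⟨e⟩⟩ | h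
      · exact absurd hR (hN.alt G ⟨6, ⟨by norm_num, by norm_num⟩, ⟨e⟩⟩)
      · exact absurd hR (hN.psu3 G ⟨F, iF, iFt, 3, 3, by decide, hc, rfl, ⟨e⟩⟩)
      · exact absurd hG (tits h)
    · exact absurd h (by norm_num)
  · exact absurd hG (a8 h)
  · exact absurd hG (a12 h)
  · exact absurd hG (l43 h)
  · -- U₄(3)
    obtain ⟨F, iF, iFt, n, q, ho, hFq, ⟨rfl, rfl⟩, e⟩ := h
    have : Fact (Nat.Prime 3) := ⟨Nat.prime_three⟩
    exact ⟨ZMod 3, inferInstance, inferInstance, ZMod.card 3, Or.inr (Or.inr ⟨F, iF, iFt, by rw [hFq]; norm_num, e⟩)⟩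
  · -- G₂(3)
    obtain ⟨F, iF, iFt, ho, hc, e⟩ := h
    exact ⟨F, iF, iFt, hc, Or.inl e⟩
  · exact absurd hG (o73 h)
  · exact absurd hG (o8p3 h)
  · exact absurd hG (o8m3 h)
  · exfalso
    rcases h with h | h | h | h | h | h | h | h | h | h | h | h | h | h | h | h | h | h | h | h
    · exact m22 h hG
    · exact m23 h hG
    · exact m24 h hG
    · exact jtwo h hG
    · exact j3 h hG
    · exact j4 h hG
    · exact hs h hG
    · exact he h hG
    · exact ru h hG
    · exact suz h hG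
    · exact co1 h hG
    · exact co2 h hG
    · exact co3 h hG
    · exact fi22 h hG
    · exact fi23 h hG
    · exact fi24 h hG
    · exact hn h hG
    · exact th h hG
    · exact babyMonster h hG
    · exact monster h hG

end Cfsg.Agent.H320.Kill
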