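import Cfsg.Agent.TwoESix.LeviF
import Cfsg.Agent.TwoESix.LongCard
import Cfsg.Agent.S1066
import Cfsg.Agent.H320.Kill.Base

/-!
# `²E_6(2)` (helper320)
-/

set_option autoImplicit false

namespace Cfsg.Agent.H320.Kill

open Cfsg Cfsg.Lie
open Cfsg.Agent.ChevalleyStructure.TwE6Basic
open Cfsg.Agent.TwoESix.LeviA Cfsg.Agent.TwoESix.LeviC Cfsg.Agent.TwoESix.LeviD Cfsg.Agent.TwoESix.LeviF
open Cfsg.Agent.TwoESix.LongPairs
open Cfsg.Agent.TwoESix.LongCard (card_levi)

universe u

theorem twE6_two {K : Type} [Field K] [Fintype K] (hK : Fintype.card K = 4) {G : Type u} [Group G]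
    (e : G ≃* twistedE6 K 2) : ¬ Good G := by
  intro hG0
  have hG := hG0.congr e
  have hfin := hG.fin
  have h3f : Fact (Nat.Prime 3) := ⟨Nat.prime_three⟩
  obtain ⟨hch, φ, F⟩ := exists_four K hK
  have hcE : Nat.card ↥(twistedE6 K 2) = 76532479683774853939200 := by
    have h := Cfsg.Agent.S1066.result (K := K) (q := 2) Nat.prime_two.isPrimePow hK
    norm_num at h
    omega
  let f : ↥(LL K) →* ↥(twistedE6 K 2) := Subgroup.inclusion inf_le_right
  have hf : Function.Injective f := Subgroup.inclusion_injective _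
  have hcL : Nat.card ↥(LL K) = 9196830720 := card_levi F
  have hx : orderOf (r0 F * s0 F) = 3 := by
    refine orderOf_eq_prime (cube_r0_s0 F) ?_
    intro h
    apply r0_ne_s0 F
    have h1 := r0_sq F
    exact mul_left_cancel (h1.trans h.symm)
  have hcomm : ∀ l, f l * (r0 F * s0 F) = r0 F * s0 F * f l := by
    intro l
    obtain ⟨g, hg, hgl⟩ := exists_of_LL F l
    have h1 := lvHom_of_comm F hg
    rw [hgl] at h1
    have h2 : f l = (g : ↥(twistedE6 K 2)) := Subtype.ext h1
    have h3 := Subgroup.mem_centralizer_singleton_iff.mp g.2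
    rw [h2, ← mul_assoc, h3, mul_assoc, hg, mul_assoc]
  obtain ⟨hs, hnc⟩ := simple_LL F
  obtain ⟨i, h1, -, h3⟩ := hG.hom_data hx f hf hcomm hs hnc (by rw [hcL]; norm_num)
  obtain ⟨k, hk1, hki, hk5⟩ := h3 5 (by norm_num) (by norm_num) (by rw [hcL]; norm_num)
  rw [hcL, hcE] at h1
  have hi : i ≤ 3 := by
    by_contra hcon
    push Not at hcon
    have h5 : 3 ^ 4 * 9196830720 ∣ 76532479683774853939200 := (Nat.mul_dvd_mul_right (pow_dvd_pow 3 hcon) _).trans h1
    norm_num at h5
  have : k = 1 ∨ k = 2 := by omega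
  rcases this with rfl | rfl <;> norm_num at hk5

end Cfsg.Agent.H320.Kill
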